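import Cfsg.Agent.H64.SLIndex.Transv

/-!
# The parabolic of a line in `SL_{m+1}`

The abelian unipotent radical, its Levi complement `GL_m`, and the duality automorphism.
-/

set_option autoImplicit false

namespace Cfsg.Agent.H44.SLMin

open Matrix
open Cfsg.Agent.H64.SLIndex

variable {F : Type*} [Field F] {m : ℕ}

/-- The element `(1 r; 0 1)`. -/
def uMat (r : Fin m → F) : SpecialLinearGroup (Fin (m + 1)) F :=
  tv (Pi.single 0 1) (Fin.cons 0 r) (by simp)

theorem uMat_zero : uMat (0 : Fin m → F) = 1 := by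
  rw [← tv_zero (Pi.single (0 : Fin (m + 1)) (1 : F))]
  exact tv_congr _ _ rfl (by ext i; cases i using Fin.cases <;> simp)

theorem uMat_add (r s : Fin m → F) : uMat (r + s) = uMat r * uMat s := by
  rw [uMat, uMat, uMat, tv_mul_right]
  exact tv_congr _ _ rfl (by ext i; cases i using Fin.cases <;> simp)

/-- The matrix `(det A⁻¹ 0; 0 A)`. -/
def levMat (A : GL (Fin m) F) : Matrix (Fin (m + 1)) (Fin (m + 1)) F :=
  Matrix.of (Fin.cons (Fin.cons ((GeneralLinearGroup.det A)⁻¹ : Fˣ).val 0)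
    (fun i => Fin.cons 0 ((A : Matrix (Fin m) (Fin m) F) i)))

theorem det_levMat (A : GL (Fin m) F) : (levMat A).det = 1 := by
  rw [Matrix.det_succ_row_zero, Finset.sum_eq_single 0]
  · rw [show (levMat A).submatrix Fin.succ (Fin.succAbove 0) = (A : Matrix (Fin m) (Fin m) F) by
      ext i j; simp [levMat]]
    simp only [Fin.val_zero, pow_zero, one_mul]
    exact Units.inv_mul (GeneralLinearGroup.det A)
  · intro j _ hj
    obtain ⟨i, rfl⟩ := Fin.exists_succ_eq.mpr hj
    simp [levMat]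
  · simp

/-- The Levi complement. -/
def lev : GL (Fin m) F →* SpecialLinearGroup (Fin (m + 1)) F where
  toFun A := ⟨levMat A, det_levMat A⟩
  map_one' := by
    apply Subtype.ext
    show levMat 1 = 1
    ext i j
    cases i using Fin.cases <;> cases j using Fin.cases <;>
      simp [levMat, Matrix.one_apply, Fin.succ_ne_zero, eq_comm (a := (0 : Fin (m + 1)))]
  map_mul' A B := by
    apply Subtype.ext
    show levMat (A * B) = levMat A * levMat B
    ext i j
    cases i using Fin.cases <;> cases j using Fin.cases <;>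
      simp [levMat, Matrix.mul_apply, Fin.sum_univ_succ, mul_comm]

theorem lev_mulVec (A : GL (Fin m) F) (b : F) (x : Fin m → F) :
    (lev A : Matrix (Fin (m + 1)) (Fin (m + 1)) F) *ᵥ Fin.cons b x =
      Fin.cons (((GeneralLinearGroup.det A)⁻¹ : Fˣ).val * b)
        ((A : Matrix (Fin m) (Fin m) F) *ᵥ x) := by
  show levMat A *ᵥ _ = _
  ext i
  cases i using Fin.cases <;> simp [levMat, mulVec, dotProduct, Fin.sum_univ_succ]

theorem lev_vecMul (A : GL (Fin m) F) (b : F) (x : Fin m → F) :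
    Fin.cons b x ᵥ* (lev A : Matrix (Fin (m + 1)) (Fin (m + 1)) F) =
      Fin.cons (b * ((GeneralLinearGroup.det A)⁻¹ : Fˣ).val)
        (x ᵥ* (A : Matrix (Fin m) (Fin m) F)) := by
  show _ ᵥ* levMat A = _
  ext j
  cases j using Fin.cases <;> simp [levMat, vecMul, dotProduct, Fin.sum_univ_succ]

/-- The action of the Levi complement on the radical. -/
theorem lev_conj_uMat (A : GL (Fin m) F) (r : Fin m → F) :
    lev A * uMat r * (lev A)⁻¹ =
      uMat (((GeneralLinearGroup.det A)⁻¹ : Fˣ).val •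
        (r ᵥ* ((A⁻¹ : GL (Fin m) F) : Matrix (Fin m) (Fin m) F))) := by
  set a := ((GeneralLinearGroup.det A)⁻¹ : Fˣ).val
  rw [uMat, uMat, conj_tv]
  have h1 : (lev A : Matrix (Fin (m + 1)) (Fin (m + 1)) F) *ᵥ Pi.single 0 1 =
      a • (Pi.single 0 1 : Fin (m + 1) → F) := by
    rw [show (Pi.single (0 : Fin (m + 1)) (1 : F) : Fin (m + 1) → F) = Fin.cons 1 0 by
      ext i; cases i using Fin.cases <;> simp, lev_mulVec]
    ext i; cases i using Fin.cases <;> simp [a]
  have h2 : (Fin.cons 0 r : Fin (m + 1) → F) ᵥ*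
      (((lev A)⁻¹ : SpecialLinearGroup (Fin (m + 1)) F) : Matrix (Fin (m + 1)) (Fin (m + 1)) F) =
      Fin.cons 0 (r ᵥ* ((A⁻¹ : GL (Fin m) F) : Matrix (Fin m) (Fin m) F)) := by
    rw [← map_inv, lev_vecMul, zero_mul]
  have h3 : (Fin.cons 0 (r ᵥ* ((A⁻¹ : GL (Fin m) F) : Matrix (Fin m) (Fin m) F)) :
      Fin (m + 1) → F) ⬝ᵥ Pi.single 0 1 = 0 := by simp
  rw [tv_congr _ (by rw [dotProduct_smul, h3, smul_zero]) h1 h2, tv_smul _ _ _ h3]
  exact tv_congr _ _ rfl (by ext i; cases i using Fin.cases <;> simp)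

/-- `SL_m` inside the Levi complement. -/
def levS : SpecialLinearGroup (Fin m) F →* SpecialLinearGroup (Fin (m + 1)) F :=
  lev.comp SpecialLinearGroup.toGL

theorem det_toGL (S : SpecialLinearGroup (Fin m) F) :
    GeneralLinearGroup.det (SpecialLinearGroup.toGL S : GL (Fin m) F) = 1 := Units.ext S.2

theorem levS_tv (v φ : Fin m → F) (h : φ ⬝ᵥ v = 0) :
    levS (tv v φ h) = tv (Fin.cons 0 v) (Fin.cons 0 φ)
      (by simp [dotProduct, Fin.sum_univ_succ] at h ⊢; exact h) := by
  apply Subtype.ext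
  show levMat (SpecialLinearGroup.toGL (tv v φ h)) = _
  rw [tv_coe, levMat, det_toGL]
  ext i j
  cases i using Fin.cases <;> cases j using Fin.cases <;>
    simp [Matrix.one_apply, vecMulVec_apply, tv_coe, Fin.succ_ne_zero,
      eq_comm (a := (0 : Fin (m + 1)))]

/-- Inverse transpose. -/
def dual {k : ℕ} : SpecialLinearGroup (Fin k) F →* SpecialLinearGroup (Fin k) F where
  toFun g := ⟨((g⁻¹ : SpecialLinearGroup (Fin k) F) : Matrix (Fin k) (Fin k) F)ᵀ, by
    rw [det_transpose]; exact g⁻¹.2⟩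
  map_one' := Subtype.ext (by simp)
  map_mul' g h := Subtype.ext (by
    exact (congrArg transpose (congrArg Subtype.val (_root_.mul_inv_rev g h))).trans
      (transpose_mul _ _))

theorem dual_tv {k : ℕ} (v φ : Fin k → F) (h : φ ⬝ᵥ v = 0) :
    dual (tv v φ h) = tv φ (-v) (by rw [neg_dotProduct, dotProduct_comm, h, neg_zero]) := by
  apply Subtype.ext
  show (((tv v φ h)⁻¹ : SpecialLinearGroup (Fin k) F) : Matrix (Fin k) (Fin k) F)ᵀ = _
  rw [tv_inv, tv_coe, tv_coe, transpose_add, transpose_one, transpose_vecMulVec]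
  ext i j
  simp [vecMulVec_apply, mul_comm]

theorem dual_dual {k : ℕ} (g : SpecialLinearGroup (Fin k) F) : dual (dual g) = g := by
  have hinv : (dual g)⁻¹ = dual g⁻¹ := (map_inv dual g).symm
  apply Subtype.ext
  show (((dual g)⁻¹ : SpecialLinearGroup (Fin k) F) : Matrix (Fin k) (Fin k) F)ᵀ = _
  rw [hinv]
  show ((((g⁻¹)⁻¹ : SpecialLinearGroup (Fin k) F)) : Matrix (Fin k) (Fin k) F)ᵀᵀ = _
  rw [inv_inv, transpose_transpose]

theorem dual_surjective {k : ℕ} : Function.Surjective (dual (F := F) (k := k)) :=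
  fun g => ⟨dual g, dual_dual g⟩

/-- The duality preserves the image of `SL_m`. -/
theorem dual_levS (S : SpecialLinearGroup (Fin m) F) : dual (levS S) = levS (dual S) := by
  apply Subtype.ext
  show (((levS S)⁻¹ : SpecialLinearGroup (Fin (m + 1)) F) :
    Matrix (Fin (m + 1)) (Fin (m + 1)) F)ᵀ = levMat (SpecialLinearGroup.toGL (dual S))
  rw [← map_inv]
  show (levMat (SpecialLinearGroup.toGL S⁻¹))ᵀ = _
  rw [levMat, levMat, det_toGL, det_toGL]
  ext i j
  cases i using Fin.cases <;> cases j using Fin.cases <;> rfl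

/-- The radical and its dual generate. -/
theorem eq_top_of_uMat_mem (H : Subgroup (SpecialLinearGroup (Fin (m + 1)) F))
    (h1 : ∀ r, uMat r ∈ H) (h2 : ∀ r : Fin m → F, dual (uMat r) ∈ H) : H = ⊤ := by
  refine Cfsg.Agent.H1.SL_eq_top_of_transvection_mem H fun i j hij c => ?_
  have up : ∀ (j : Fin m) (c : F),
      SpecialLinearGroup.transvection (Fin.succ_ne_zero j).symm c ∈ H := by
    intro j c
    rw [transvection_eq_tv]
    convert h1 (Pi.single j c) using 1
    exact tv_congr _ _ rfl (by ext i; cases i using Fin.cases <;> simp [Pi.single_apply, Fin.succ_ne_zero])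
  have down : ∀ (i : Fin m) (c : F),
      SpecialLinearGroup.transvection (Fin.succ_ne_zero i) c ∈ H := by
    intro i c
    rw [transvection_eq_tv]
    have := inv_mem (h2 (Pi.single i c))
    rw [uMat, dual_tv, tv_inv, tv_congr _ (v' := c • (Pi.single i.succ 1 : Fin (m + 1) → F))
      (φ' := Pi.single 0 1) (by simp [dotProduct_smul, Fin.succ_ne_zero])] at this
    · rw [tv_smul _ _ _ (by simp [Fin.succ_ne_zero])] at this
      convert this using 1
      exact tv_congr _ _ rfl (by ext a; simp [Pi.single_apply])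
    · ext a; cases a using Fin.cases <;> simp [Pi.single_apply, Fin.succ_ne_zero]
    · simp
  rcases Fin.eq_zero_or_eq_succ i with rfl | ⟨i, rfl⟩
  · obtain ⟨j, rfl⟩ := Fin.exists_succ_eq.mpr hij.symm
    exact up j c
  · rcases Fin.eq_zero_or_eq_succ j with rfl | ⟨j, rfl⟩
    · exact down i c
    · rw [← mul_one c, ← Cfsg.Agent.H1.commutator_transvection hij (Fin.succ_ne_zero i)
        (Fin.succ_ne_zero j).symm c 1, commutatorElement_def]
      exact mul_mem (mul_mem (mul_mem (down i c) (up j 1)) (inv_mem (down i c))) (inv_mem (up j 1))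

/-- Transvections. -/
def IsTransv {k : ℕ} (g : SpecialLinearGroup (Fin k) F) : Prop :=
  ∃ (v φ : Fin k → F) (h : φ ⬝ᵥ v = 0), v ≠ 0 ∧ φ ≠ 0 ∧ g = tv v φ h

theorem isTransv_uMat {r : Fin m → F} (hr : r ≠ 0) : IsTransv (uMat r) :=
  ⟨_, _, _, by simp, fun h => hr (funext fun i => by simpa using congrFun h i.succ), rfl⟩

theorem isTransv_levS {k : ℕ} {g : SpecialLinearGroup (Fin k) F} (hg : IsTransv g) :
    IsTransv (levS g) := by
  obtain ⟨v, φ, h, hv, hφ, rfl⟩ := hg
  exact ⟨_, _, _, fun h' => hv (funext fun i => by simpa using congrFun h' i.succ),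
    fun h' => hφ (funext fun i => by simpa using congrFun h' i.succ), levS_tv v φ h⟩

theorem isTransv_dual {k : ℕ} {g : SpecialLinearGroup (Fin k) F} (hg : IsTransv g) :
    IsTransv (dual g) := by
  obtain ⟨v, φ, h, hv, hφ, rfl⟩ := hg
  exact ⟨_, _, _, hφ, neg_ne_zero.mpr hv, dual_tv v φ h⟩

theorem IsTransv.isConj {k : ℕ} (hk : 3 ≤ k) {g g' : SpecialLinearGroup (Fin k) F}
    (hg : IsTransv g) (hg' : IsTransv g') : IsConj g g' := by
  obtain ⟨v, φ, h, hv, hφ, rfl⟩ := hg
  obtain ⟨w, ψ, h', hw, hψ, rfl⟩ := hg'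
  obtain ⟨c, hc⟩ := exists_conj_tv hk hv hφ hw hψ h h'
  exact isConj_iff.mpr ⟨c, hc⟩

/-! ### The action on characters of the radical -/

/-- The action of `GL_m` on the labels of the characters of the radical. -/
def act (A : GL (Fin m) F) (w : Fin m → F) : Fin m → F :=
  (A : Matrix (Fin m) (Fin m) F).det • ((A : Matrix (Fin m) (Fin m) F) *ᵥ w)

theorem act_one (w : Fin m → F) : act 1 w = w := by simp [act]

theorem act_mul (A B : GL (Fin m) F) (w : Fin m → F) : act (A * B) w = act A (act B w) := by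
  simp [act, mulVec_smul, smul_smul, ← mulVec_mulVec]

theorem act_inv_act (A : GL (Fin m) F) (w : Fin m → F) : act A⁻¹ (act A w) = w := by
  rw [← act_mul, inv_mul_cancel, act_one]

theorem act_eq_zero {A : GL (Fin m) F} {w : Fin m → F} : act A w = 0 ↔ w = 0 := by
  constructor
  · intro h
    rw [← act_inv_act A w, h]; simp [act]
  · rintro rfl; simp [act]

theorem act_toGL (S : SpecialLinearGroup (Fin m) F) (w : Fin m → F) :
    act (SpecialLinearGroup.toGL S) w = (S : Matrix (Fin m) (Fin m) F) *ᵥ w := by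
  show (S : Matrix (Fin m) (Fin m) F).det • ((S : Matrix (Fin m) (Fin m) F) *ᵥ w) = _
  rw [S.2, one_smul]

theorem exists_act_eq (hm : 2 ≤ m) {w w' : Fin m → F} (hw : w ≠ 0) (hw' : w' ≠ 0) :
    ∃ S : SpecialLinearGroup (Fin m) F, act (SpecialLinearGroup.toGL S) w = w' := by
  have : Nontrivial (Fin m) := Fin.nontrivial_iff_two_le.mpr hm
  obtain ⟨S, hS⟩ := Cfsg.Agent.H1.exists_SL_smul_eq (F := F) hw hw'
  exact ⟨S, by rw [act_toGL]; exact hS⟩

end Cfsg.Agent.H44.SLMin
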