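import Cfsg.Agent.H44.SLMinDegree.Levi
import Cfsg.Agent.H25.CharIntegral
import Cfsg.Agent.H26.CharBasic

/-!
# The class of transvections and the divisibility it forces
-/

set_option autoImplicit false

namespace Cfsg.Agent.H44.SLMin

open Matrix Module
open Cfsg.Agent.H64.SLIndex

variable {F : Type*} [Field F] [Fintype F] [DecidableEq F] {m : ℕ}

omit [Fintype F] [DecidableEq F] in
theorem tv_eq_tv_iff {k : ℕ} {v φ v' φ' : Fin k → F} (h : φ ⬝ᵥ v = 0) (h' : φ' ⬝ᵥ v' = 0)
    (hv : v ≠ 0) (hφ : φ ≠ 0) :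
    tv v' φ' h' = tv v φ h ↔ ∃ c : Fˣ, v' = (c : F) • v ∧ φ' = ((c⁻¹ : Fˣ) : F) • φ := by
  constructor
  · intro e
    have e0 := congrArg Subtype.val e
    rw [tv_coe, tv_coe, add_right_inj] at e0
    have e1 : ∀ i j, v' i * φ' j = v i * φ j := fun i j => by
      have := congrFun (congrFun e0 i) j
      simpa [vecMulVec_apply] using this
    obtain ⟨j, hj⟩ := Function.ne_iff.mp hφ
    obtain ⟨i, hi⟩ := Function.ne_iff.mp hv
    simp only [Pi.zero_apply] at hi hj
    have h1 := e1 i j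
    have hvi : v' i ≠ 0 := fun z => mul_ne_zero hi hj (by rw [← h1, z, zero_mul])
    refine ⟨Units.mk0 (v' i / v i) (div_ne_zero hvi hi), ?_, ?_⟩
    · funext a
      have h2 := e1 a j
      simp only [Units.val_mk0, Pi.smul_apply, smul_eq_mul]
      have hφj : φ' j ≠ 0 := fun z => mul_ne_zero hi hj (by rw [← h1, z, mul_zero])
      field_simp
      refine mul_right_cancel₀ hφj ?_
      linear_combination (v i) * h2 - (v a) * h1
    · funext b
      have h2 := e1 i b
      simp only [Units.val_inv_eq_inv_val, Units.val_mk0, Pi.smul_apply, smul_eq_mul]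
      field_simp
      linear_combination h2
  · rintro ⟨c, rfl, rfl⟩
    apply Subtype.ext
    rw [tv_coe, tv_coe, smul_vecMulVec, vecMulVec_smul, smul_smul, ← Units.val_mul, mul_inv_cancel,
      Units.val_one, one_smul]

/-- The size of the class of transvections. -/
theorem class_card_mul (hm : 2 ≤ m) :
    (Subgroup.centralizer ({uMat (1 : Fin m → F)} :
        Set (SpecialLinearGroup (Fin (m + 1)) F))).index * (Fintype.card F - 1) =
      (Fintype.card F ^ (m + 1) - 1) * (Fintype.card F ^ m - 1) := by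
  classical
  rw [Cfsg.Agent.H25.index_centralizer_eq_card_class, Nat.card_eq_fintype_card,
    Fintype.card_subtype]
  let pairs : Finset (Σ _ : Fin (m + 1) → F, Fin (m + 1) → F) :=
    (Finset.univ.filter fun v => v ≠ 0).sigma fun v =>
      Finset.univ.filter fun φ => φ ≠ 0 ∧ φ ⬝ᵥ v = 0
  let t : (Σ _ : Fin (m + 1) → F, Fin (m + 1) → F) → SpecialLinearGroup (Fin (m + 1)) F :=
    fun p => if h : p.2 ⬝ᵥ p.1 = 0 then tv p.1 p.2 h else 1
  have hu := isTransv_uMat (one_ne_zero_vec (F := F) (m := m) (by omega))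
  have hmaps : ∀ p ∈ pairs, t p ∈ Finset.univ.filter (fun x => IsConj (uMat (1 : Fin m → F)) x) := by
    rintro ⟨v, φ⟩ hp
    simp only [pairs, Finset.mem_sigma, Finset.mem_filter, Finset.mem_univ, true_and] at hp ⊢
    simp only [t, dif_pos hp.2.2]
    exact hu.isConj (by omega) ⟨v, φ, _, hp.1, hp.2.1, rfl⟩
  have h1 := Finset.card_eq_sum_card_fiberwise hmaps
  have h2 : ∀ x ∈ Finset.univ.filter (fun x => IsConj (uMat (1 : Fin m → F)) x),
      (pairs.filter fun p => t p = x).card = Fintype.card F - 1 := by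
    intro x hx
    obtain ⟨g, hg⟩ := isConj_iff.mp (Finset.mem_filter.mp hx).2
    obtain ⟨v0, φ0, h0, hv0, hφ0, e0⟩ := hu
    rw [e0, conj_tv] at hg
    set v := (g : Matrix (Fin (m + 1)) (Fin (m + 1)) F) *ᵥ v0
    set φ := φ0 ᵥ* ((g⁻¹ : SpecialLinearGroup (Fin (m + 1)) F) :
      Matrix (Fin (m + 1)) (Fin (m + 1)) F)
    have h : φ ⬝ᵥ v = 0 := dotProduct_conj g h0
    have hv : v ≠ 0 := fun z => hv0 (Matrix.eq_zero_of_mulVec_eq_zero
      (ne_of_eq_of_ne g.2 one_ne_zero) z)
    have hφ : φ ≠ 0 := fun z => hφ0 (Matrix.eq_zero_of_vecMul_eq_zero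
      (ne_of_eq_of_ne (g⁻¹).2 one_ne_zero) z)
    rw [← hg, ← Fintype.card_units, ← Finset.card_univ]
    refine (Finset.card_bij (fun c _ => ⟨(c : F) • v, ((c⁻¹ : Fˣ) : F) • φ⟩) ?_ ?_ ?_).symm
    · intro c _
      have hd : (((c⁻¹ : Fˣ) : F) • φ) ⬝ᵥ ((c : F) • v) = 0 := by simp [h]
      simp only [pairs, Finset.mem_filter, Finset.mem_sigma, Finset.mem_univ, true_and]
      refine ⟨⟨smul_ne_zero c.ne_zero hv, smul_ne_zero (Units.ne_zero _) hφ, hd⟩, ?_⟩
      simp only [t, dif_pos hd]
      exact (tv_eq_tv_iff h hd hv hφ).mpr ⟨c, rfl, rfl⟩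
    · intro a _ b _ e
      exact Units.ext (smul_left_injective F hv (Sigma.mk.inj_iff.mp e).1)
    · rintro ⟨v', φ'⟩ hp
      simp only [pairs, Finset.mem_filter, Finset.mem_sigma, Finset.mem_univ, true_and] at hp
      obtain ⟨⟨-, -, hd⟩, hp⟩ := hp
      simp only [t, dif_pos hd] at hp
      obtain ⟨c, rfl, rfl⟩ := (tv_eq_tv_iff h hd hv hφ).mp hp
      exact ⟨c, Finset.mem_univ _, rfl⟩
  rw [Finset.sum_congr rfl h2, Finset.sum_const, smul_eq_mul] at h1
  rw [← h1, Finset.card_sigma]
  have h3 : ∀ v ∈ Finset.univ.filter (fun v : Fin (m + 1) → F => v ≠ 0),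
      (Finset.univ.filter fun φ => φ ≠ 0 ∧ φ ⬝ᵥ v = 0).card = Fintype.card F ^ m - 1 := by
    intro v hv
    have hv' := (Finset.mem_filter.mp hv).2
    rw [show (Finset.univ.filter fun φ : Fin (m + 1) → F => φ ≠ 0 ∧ φ ⬝ᵥ v = 0) =
        (Finset.univ.filter fun φ => v ⬝ᵥ φ = 0).erase 0 by
      ext φ; simp [dotProduct_comm v], Finset.card_erase_of_mem (by simp), card_ker_dot hv']
    simp
  rw [Finset.sum_congr rfl h3, Finset.sum_const, smul_eq_mul, Finset.filter_ne',
    Finset.card_erase_of_mem (Finset.mem_univ _), Finset.card_univ, Fintype.card_pi_const]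

variable {V : Type} [AddCommGroup V] [Module ℂ V] [FiniteDimensional ℂ V]
  (ρ : Representation ℂ (SpecialLinearGroup (Fin (m + 1)) F) V) {ψ : AddChar F ℂ}

/-- The degree divides the class size times the order of the radical. -/
theorem dvd_classSize_mul [ρ.IsIrreducible] (hψ : ψ ≠ 1) (hm : 2 ≤ m) (hM : mult ρ ψ = 1) :
    finrank ℂ V ∣ (Subgroup.centralizer ({uMat (1 : Fin m → F)} :
        Set (SpecialLinearGroup (Fin (m + 1)) F))).index * Fintype.card F ^ m := by
  have h := Cfsg.Agent.H25.isIntegral_classSize_mul_char_div ρ (uMat (1 : Fin m → F))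
  set K := (Subgroup.centralizer ({uMat (1 : Fin m → F)} :
        Set (SpecialLinearGroup (Fin (m + 1)) F))).index
  have hd := finrank_eq ρ hψ (trans_of_two_le hm)
  have hpos : finrank ℂ V ≠ 0 := (Cfsg.Agent.H25.finrank_pos_of_isIrreducible ρ).ne'
  refine Cfsg.Agent.H25.dvd_of_isIntegral_div hpos ?_
  have hd' : (finrank ℂ V : ℂ) = fdim ρ ψ + ((Fintype.card F : ℂ) ^ m - 1) := by
    rw [hd, hM, one_mul, Nat.cast_add, Nat.cast_sub (Nat.one_le_pow _ _ Fintype.card_pos)]
    push_cast; ring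
  have hK : IsIntegral ℤ (K : ℂ) := map_natCast (algebraMap ℤ ℂ) K ▸ isIntegral_algebraMap
  have h2 := hK.sub h
  have e : ((K * Fintype.card F ^ m : ℕ) : ℂ) / (finrank ℂ V : ℂ) =
      (K : ℂ) - (K : ℂ) * ρ.character (uMat (1 : Fin m → F)) / (finrank ℂ V : ℂ) := by
    rw [char_uMat ρ hψ (trans_of_two_le hm) (one_ne_zero_vec (by omega)), hM]
    have hne : (finrank ℂ V : ℂ) ≠ 0 := Nat.cast_ne_zero.mpr hpos
    push_cast
    field_simp
    rw [hd']
    ring
  rw [e]
  exact h2

omit [FiniteDimensional ℂ V] in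
/-- Sum of the character over the radical. -/
theorem sum_char_uMat [FiniteDimensional ℂ V] (hψ : ψ ≠ 1) :
    ∑ r : Fin m → F, ρ.character (uMat r) = (Fintype.card F : ℂ) ^ m * fdim ρ ψ := by
  rw [← trace_pr_zero ρ hψ, pr, map_smul, map_sum, smul_eq_mul, ← mul_assoc,
    mul_inv_cancel₀ (pow_ne_zero _ (Nat.cast_ne_zero.mpr Fintype.card_ne_zero)), one_mul]
  refine Finset.sum_congr rfl fun r _ => ?_
  simp [Representation.character]

omit [DecidableEq F] in
/-- An irreducible representation of degree at least two has no invariants. -/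
theorem invariants_eq_bot [ρ.IsIrreducible] (h2 : 2 ≤ finrank ℂ V) :
    Representation.invariants ρ = ⊥ := by
  obtain ⟨hn, hall⟩ := (Cfsg.Agent.H26.isIrreducible_iff_forall ρ).mp inferInstance
  rcases hall (Representation.invariants ρ) (fun g v hv => by
    rw [(Representation.mem_invariants ρ v).mp hv g]; exact hv) with h | h
  · exact h
  · obtain ⟨v, hv⟩ := exists_ne (0 : V)
    have ht : ∀ (g : SpecialLinearGroup (Fin (m + 1)) F) (x : V), ρ g x = x := fun g x =>
      (Representation.mem_invariants ρ x).mp (h ▸ Submodule.mem_top) g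
    rcases hall (ℂ ∙ v) (fun g x hx => by rwa [ht]) with hb | hb
    · exact absurd (Submodule.span_singleton_eq_bot.mp hb) hv
    · have h1 := finrank_span_singleton (K := ℂ) hv
      rw [hb, finrank_top] at h1
      omega

omit [DecidableEq F] in
/-- A bound for irreducible representations gives one for non-trivial representations. -/
theorem bound_of_irreducible {B : ℕ}
    (hirr : ∀ (W : Type) [AddCommGroup W] [Module ℂ W] [FiniteDimensional ℂ W]
      (σ : Representation ℂ (SpecialLinearGroup (Fin (m + 1)) F) W),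
      σ.IsIrreducible → (∃ g, σ g ≠ 1) → B ≤ finrank ℂ W) :
    ∀ (d : ℕ) (W : Type) [AddCommGroup W] [Module ℂ W] [FiniteDimensional ℂ W]
      (σ : Representation ℂ (SpecialLinearGroup (Fin (m + 1)) F) W),
      finrank ℂ W = d → (∃ g, σ g ≠ 1) → B ≤ finrank ℂ W := by
  intro d
  induction d using Nat.strong_induction_on with
  | _ d ih =>
  intro W _ _ _ σ hd hne
  obtain ⟨g, hg⟩ := hne
  have : Nontrivial W := by
    by_contra hW
    rw [not_nontrivial_iff_subsingleton] at hW
    exact hg (LinearMap.ext fun x => Subsingleton.elim _ _)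
  obtain ⟨U, hU⟩ := Cfsg.Agent.H26.exists_irreducible_sub σ
  obtain ⟨U', hc⟩ := Cfsg.Agent.H26.exists_compl_sub σ U
  by_cases hUt : ∃ g, U.toRepresentation g ≠ 1
  · exact le_trans (hirr _ _ hU hUt) (Submodule.finrank_le _)
  · push Not at hUt
    have hU' : U'.toRepresentation g ≠ 1 := fun h' => hg (LinearMap.ext fun x => by
      have hx : x ∈ U.toSubmodule ⊔ U'.toSubmodule := hc.sup_eq_top ▸ Submodule.mem_top
      obtain ⟨a, ha, b, hb, rfl⟩ := Submodule.mem_sup.mp hx
      have ea := congrArg Subtype.val (LinearMap.congr_fun (hUt g) ⟨a, ha⟩)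
      have eb := congrArg Subtype.val (LinearMap.congr_fun h' ⟨b, hb⟩)
      rw [map_add, show σ g a = a from ea, show σ g b = b from eb]
      rfl)
    have hadd := Submodule.finrank_add_eq_of_isCompl hc
    have hpos : 0 < finrank ℂ U.toSubmodule := Cfsg.Agent.H25.finrank_pos_of_isIrreducible U.toRepresentation
    exact le_trans (ih _ (by omega) _ U'.toRepresentation rfl ⟨g, hU'⟩) (Submodule.finrank_le _)

end Cfsg.Agent.H44.SLMin
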