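import Cfsg.Agent.H44.SLMinDegree.Basic

/-!
# Transvections as commutators in a stabiliser of a non-trivial radical character
-/

set_option autoImplicit false

namespace Cfsg.Agent.H44.SLMin

open Matrix Module
open Cfsg.Agent.H64.SLIndex

variable {F : Type*} [Field F] {m : ℕ}

theorem toGL_coe (S : SpecialLinearGroup (Fin m) F) :
    ((SpecialLinearGroup.toGL S : GL (Fin m) F) : Matrix (Fin m) (Fin m) F) =
      (S : Matrix (Fin m) (Fin m) F) := rfl

theorem act_tv_eq_iff {v φ : Fin m → F} (h : φ ⬝ᵥ v = 0) (hv : v ≠ 0) (w : Fin m → F) :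
    act (SpecialLinearGroup.toGL (tv v φ h)) w = w ↔ φ ⬝ᵥ w = 0 := by
  rw [act_toGL, tv_mulVec]
  simp [hv]

/-- A stabiliser element scaling `v` and `φ` differently produces `tv v φ` as a commutator. -/
theorem comm_of_scaling {v φ w : Fin m → F} (h : φ ⬝ᵥ v = 0) (hw : φ ⬝ᵥ w = 0)
    (A : GL (Fin m) F) (hA : act A w = w) {α γ : F}
    (hv : (A : Matrix (Fin m) (Fin m) F) *ᵥ v = α • v)
    (hφ : φ ᵥ* (A : Matrix (Fin m) (Fin m) F) = γ • φ) (hγ : γ ≠ 0) (hne : α ≠ γ) :
    ∃ X Y : GL (Fin m) F, act X w = w ∧ act Y w = w ∧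
      SpecialLinearGroup.toGL (tv v φ h) = X * Y * X⁻¹ * Y⁻¹ := by
  set κ := α / γ with hκ
  set t := (κ - 1)⁻¹ with ht
  have hκ1 : κ - 1 ≠ 0 := sub_ne_zero.mpr fun e => hne ((div_eq_one_iff_eq hγ).mp e)
  have hd : (t • φ) ⬝ᵥ v = 0 := by rw [smul_dotProduct, h, smul_zero]
  have hd' : ((κ * t) • φ) ⬝ᵥ v = 0 := by rw [smul_dotProduct, h, smul_zero]
  set Y : GL (Fin m) F := SpecialLinearGroup.toGL (tv v (t • φ) hd)
  set Y' : GL (Fin m) F := SpecialLinearGroup.toGL (tv v ((κ * t) • φ) hd')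
  have h1 : A * Y = Y' * A := by
    apply Units.ext
    simp only [Units.val_mul, Y, Y', toGL_coe, tv_coe, mul_add, mul_one, add_mul, one_mul,
      mul_vecMulVec, vecMulVec_mul, hv, smul_vecMul, hφ, smul_smul]
    rw [smul_vecMulVec, vecMulVec_smul, vecMulVec_smul, smul_smul]
    congr 2
    rw [hκ]
    field_simp
  refine ⟨A, Y, hA, ?_, ?_⟩
  · rw [act_toGL, tv_mulVec, smul_dotProduct, hw, smul_zero, zero_smul, add_zero]
  · rw [h1, mul_inv_cancel_right]
    show _ = SpecialLinearGroup.toGL _ * (SpecialLinearGroup.toGL _)⁻¹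
    rw [← map_inv, ← map_mul, tv_inv, tv_mul_right]
    congr 1
    refine tv_congr _ _ rfl ?_
    rw [← sub_eq_add_neg, ← sub_smul, show κ * t - t = (κ - 1) * t by ring, ht,
      mul_inv_cancel₀ hκ1, one_smul]

/-- Elementary case: a covector killing `v` and `w`, independent of `φ`. -/
theorem comm_of_covector {v φ w ψ : Fin m → F} (h : φ ⬝ᵥ v = 0) (hw : φ ⬝ᵥ w = 0)
    (hψv : ψ ⬝ᵥ v = 0) (hψw : ψ ⬝ᵥ w = 0) (hind : ∀ r : F, ψ ≠ r • φ) :
    ∃ X Y : GL (Fin m) F, act X w = w ∧ act Y w = w ∧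
      SpecialLinearGroup.toGL (tv v φ h) = X * Y * X⁻¹ * Y⁻¹ := by
  obtain ⟨u, hu1, hu2⟩ := exists_dot hind
  refine ⟨SpecialLinearGroup.toGL (tv v ψ hψv), SpecialLinearGroup.toGL (tv u φ hu1), ?_, ?_, ?_⟩
  · rw [act_toGL, tv_mulVec, hψw, zero_smul, add_zero]
  · rw [act_toGL, tv_mulVec, hw, zero_smul, add_zero]
  · have e1 : tv v ψ hψv * tv u φ hu1 * (tv v ψ hψv)⁻¹ = tv v φ h * tv u φ hu1 := by
      rw [conj_tv, tv_mul_left]
      refine tv_congr _ _ ?_ ?_
      · rw [tv_mulVec, hu2, one_smul, add_comm]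
      · simp only [tv_inv]
        rw [tv_vecMul, h, zero_smul, add_zero]
    rw [← map_inv, ← map_inv, ← map_mul, ← map_mul, ← map_mul, e1, mul_inv_cancel_right]

/-- A covector killing two vectors and independent of a given one, in dimension at least four. -/
theorem exists_covector_four (hm : 4 ≤ m) (v w φ : Fin m → F) :
    ∃ ψ : Fin m → F, ψ ⬝ᵥ v = 0 ∧ ψ ⬝ᵥ w = 0 ∧ ∀ r : F, ψ ≠ r • φ := by
  let M : Matrix (Fin 2) (Fin m) F := Matrix.of ![v, w]
  have h1 : m - 2 ≤ finrank F M.mulVecLin.ker := by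
    have h2 := M.mulVecLin.finrank_range_add_finrank_ker
    have h3 := Submodule.finrank_le (LinearMap.range M.mulVecLin)
    rw [Module.finrank_fin_fun] at h2 h3
    omega
  by_contra hall
  push Not at hall
  have hle : M.mulVecLin.ker ≤ F ∙ φ := by
    intro ψ hψ
    have h0 := congrFun hψ 0
    have h1 := congrFun hψ 1
    obtain ⟨r, hr⟩ := hall ψ (by simpa [M, mulVec, dotProduct_comm] using h0)
      (by simpa [M, mulVec, dotProduct_comm] using h1)
    exact Submodule.mem_span_singleton.mpr ⟨r, hr.symm⟩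
  have := Submodule.finrank_mono hle
  have : finrank F (F ∙ φ) ≤ 1 := (finrank_span_le_card ({φ} : Set (Fin m → F))).trans (by simp)
  omega

/-- The conditions under which transvections are commutators in the stabilisers. -/
def CommCond (F : Type*) (m : ℕ) : Prop :=
  4 ≤ m ∨ (m = 3 ∧ 4 ≤ Nat.card F) ∨ (m = 2 ∧ Nat.card F ≠ 2 ∧ Nat.card F ≠ 4)

theorem exists_unit_pow_ne_one [Finite F] {k : ℕ} (hk : ¬ (Nat.card F - 1) ∣ k) :
    ∃ x : F, x ≠ 0 ∧ x ^ k ≠ 1 := by
  obtain ⟨g, hg⟩ := IsCyclic.exists_generator (α := Fˣ)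
  refine ⟨g, g.ne_zero, fun h => hk ?_⟩
  have h1 : orderOf g = Nat.card F - 1 := by
    rw [orderOf_eq_card_of_forall_mem_zpowers hg, Nat.card_units]
  rw [← h1]
  exact orderOf_dvd_of_pow_eq_one (Units.ext (by simpa using h))

theorem comm_tv [Finite F] (hc : CommCond F m) {v φ w : Fin m → F} (h : φ ⬝ᵥ v = 0)
    (hv : v ≠ 0) (hφ : φ ≠ 0) (hw : φ ⬝ᵥ w = 0) :
    ∃ X Y : GL (Fin m) F, act X w = w ∧ act Y w = w ∧
      SpecialLinearGroup.toGL (tv v φ h) = X * Y * X⁻¹ * Y⁻¹ := by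
  rcases hc with hm | ⟨rfl, hq⟩ | ⟨rfl, hq2, hq4⟩
  · obtain ⟨ψ, h1, h2, h3⟩ := exists_covector_four hm v w φ
    exact comm_of_covector h hw h1 h2 h3
  · by_cases hdep : ∃ r : F, w = r • v
    · obtain ⟨r, rfl⟩ := hdep
      obtain ⟨e, he⟩ : ∃ e : Fin 3 → F, φ ⬝ᵥ e = 1 := by
        obtain ⟨i, hi⟩ := Function.ne_iff.mp hφ
        simp only [Pi.zero_apply] at hi
        exact ⟨Pi.single i (φ i)⁻¹, by simp [hi]⟩
      obtain ⟨ψ, hψ0, hψv, hψe⟩ := exists_perp_two le_rfl v e
      refine comm_of_covector h hw hψv (by rw [dotProduct_smul, hψv, smul_zero]) fun a ha => ?_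
      rw [ha, smul_dotProduct, he, smul_eq_mul, mul_one] at hψe
      exact hψ0 (by rw [ha, hψe, zero_smul])
    · push Not at hdep
      have hvw : ∀ r : F, v ≠ r • w := by
        intro r hr
        rcases eq_or_ne r 0 with rfl | hr0
        · exact hv (by rw [hr, zero_smul])
        · exact hdep r⁻¹ (by rw [hr, smul_smul, inv_mul_cancel₀ hr0, one_smul])
      obtain ⟨χ, hχw, hχv⟩ := exists_dot' hvw
      obtain ⟨u, hu1, hu2⟩ : ∃ u, χ ⬝ᵥ u = 0 ∧ φ ⬝ᵥ u = 1 := exists_dot fun r hr => by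
        have := congrArg (· ⬝ᵥ v) hr
        simp only [h, smul_dotProduct, hχv, smul_eq_mul, mul_one] at this
        exact hφ (by rw [hr, ← this, zero_smul])
      obtain ⟨x, hx0, hx⟩ := exists_unit_pow_ne_one (F := F) (k := 2) fun hd => by
        have := Nat.le_of_dvd two_pos hd
        omega
      let A₁ : Matrix (Fin 3) (Fin 3) F := 1 + vecMulVec v ((x - 1) • χ)
      let A₂ : Matrix (Fin 3) (Fin 3) F := 1 + vecMulVec u ((x⁻¹ - 1) • φ)
      have hd1 : A₁.det = x := by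
        simp only [A₁]
        rw [vecMulVec_eq Unit, det_one_add_replicateCol_mul_replicateRow,
          smul_dotProduct, hχv]
        simp
      have hd2 : A₂.det = x⁻¹ := by
        simp only [A₂]
        rw [vecMulVec_eq Unit, det_one_add_replicateCol_mul_replicateRow,
          smul_dotProduct, hu2]
        simp
      have hdet : (A₁ * A₂).det = 1 := by rw [det_mul, hd1, hd2, mul_inv_cancel₀ hx0]
      have key : ∀ y, (A₁ * A₂) *ᵥ y =
          y + ((x⁻¹ - 1) * (φ ⬝ᵥ y)) • u + ((x - 1) * (χ ⬝ᵥ y)) • v := by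
        intro y
        rw [← mulVec_mulVec]
        simp only [A₁, A₂, add_mulVec, one_mulVec, vecMulVec_mulVec, op_smul_eq_smul,
          smul_dotProduct, smul_eq_mul, dotProduct_add, dotProduct_smul, hu1, mul_zero, add_zero]
      refine comm_of_scaling h hw (GeneralLinearGroup.mkOfDetNeZero (A₁ * A₂) (by rw [hdet]; simp))
        (α := x) (γ := x⁻¹) ?_ ?_ ?_ (inv_ne_zero hx0) ?_
      · show (A₁ * A₂).det • ((A₁ * A₂) *ᵥ w) = w
        rw [hdet, one_smul, key, hw, hχw]
        simp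
      · show (A₁ * A₂) *ᵥ v = _
        rw [key, h, hχv]
        ext i
        simp
        ring
      · show φ ᵥ* (A₁ * A₂) = _
        rw [← vecMul_vecMul]
        simp only [A₁, A₂, vecMul_add, vecMul_one, vecMul_vecMulVec, h, zero_smul, add_zero, hu2,
          one_smul]
        ext i
        simp
        ring
      · exact fun e => hx (by rw [pow_two]; nth_rw 1 [e]; exact inv_mul_cancel₀ hx0)
  · obtain ⟨x, hx0, hx⟩ := exists_unit_pow_ne_one (F := F) (k := 3) fun hd => by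
      have h2 := Nat.le_of_dvd (by norm_num) hd
      have h1 : 1 < Nat.card F := Finite.one_lt_card
      obtain h3 | h3 | h3 : Nat.card F - 1 = 1 ∨ Nat.card F - 1 = 2 ∨ Nat.card F - 1 = 3 := by
        omega
      · omega
      · rw [h3] at hd; norm_num at hd
      · omega
    obtain ⟨u, hu⟩ : ∃ u : Fin 2 → F, φ ⬝ᵥ u = 1 := by
      obtain ⟨i, hi⟩ := Function.ne_iff.mp hφ
      simp only [Pi.zero_apply] at hi
      exact ⟨Pi.single i (φ i)⁻¹, by simp [hi]⟩
    let A₀ : Matrix (Fin 2) (Fin 2) F := 1 + vecMulVec u ((x⁻¹ ^ 3 - 1) • φ)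
    have hd0 : A₀.det = x⁻¹ ^ 3 := by
      simp only [A₀]
      rw [vecMulVec_eq Unit, det_one_add_replicateCol_mul_replicateRow,
        smul_dotProduct, hu]
      simp
    have hdet : (x • A₀).det = x⁻¹ := by
      rw [det_smul, hd0, Fintype.card_fin]
      field_simp
    refine comm_of_scaling h hw
      (GeneralLinearGroup.mkOfDetNeZero (x • A₀) (by rw [hdet]; exact inv_ne_zero hx0))
      (α := x) (γ := x⁻¹ ^ 2) ?_ ?_ ?_ (pow_ne_zero _ (inv_ne_zero hx0)) ?_
    · show (x • A₀).det • ((x • A₀) *ᵥ w) = w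
      rw [hdet, smul_mulVec, smul_smul, inv_mul_cancel₀ hx0, one_smul]
      simp only [A₀, add_mulVec, one_mulVec, vecMulVec_mulVec, op_smul_eq_smul, smul_dotProduct, hw,
        smul_zero, zero_smul, add_zero]
    · show (x • A₀) *ᵥ v = _
      simp [A₀, smul_mulVec, add_mulVec, vecMulVec_mulVec, h]
    · show φ ᵥ* (x • A₀) = _
      simp only [A₀, vecMul_smul, vecMul_add, vecMul_one, vecMul_vecMulVec, hu, one_smul]
      ext i
      simp
      field_simp
      ring
    · intro e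
      apply hx
      rw [show x ^ 3 = x ^ 2 * x by ring]
      nth_rw 2 [e]
      rw [inv_pow, mul_inv_cancel₀ (pow_ne_zero _ hx0)]

/-- The number of vectors killed by a non-zero covector. -/
theorem card_ker_dot [Fintype F] [DecidableEq F] {φ : Fin m → F} (hφ : φ ≠ 0) :
    (Finset.univ.filter fun w : Fin m → F => φ ⬝ᵥ w = 0).card = Fintype.card F ^ (m - 1) := by
  let L : (Fin m → F) →ₗ[F] F :=
    { toFun := fun w => φ ⬝ᵥ w
      map_add' := fun a b => dotProduct_add φ a b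
      map_smul' := fun c a => dotProduct_smul c φ a }
  have hr : LinearMap.range L = ⊤ := by
    obtain ⟨i, hi⟩ := Function.ne_iff.mp hφ
    simp only [Pi.zero_apply] at hi
    exact LinearMap.range_eq_top.mpr fun c => ⟨Pi.single i (c * (φ i)⁻¹), by
      show φ ⬝ᵥ Pi.single i (c * (φ i)⁻¹) = c
      rw [dotProduct_single]
      field_simp⟩
  have h1 := L.finrank_range_add_finrank_ker
  rw [hr, finrank_top, Module.finrank_self, Module.finrank_fin_fun] at h1
  have h2 : finrank F (LinearMap.ker L) = m - 1 := by omega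
  rw [← h2, ← Fintype.card_subtype, ← Nat.card_eq_fintype_card,
    ← Nat.card_eq_fintype_card (α := F), ← Module.natCard_eq_pow_finrank]
  exact Nat.card_congr (Equiv.subtypeEquivRight fun w => Iff.rfl)

end Cfsg.Agent.H44.SLMin
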