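import Cfsg.Agent.H44.SLMinDegree.Weights
import Cfsg.Agent.H44.SLMinDegree.Stab

/-!
# The representation of `SL_m` on the fixed space of the radical
-/

set_option autoImplicit false

namespace Cfsg.Agent.H44.SLMin

open Matrix Module
open Cfsg.Agent.H64.SLIndex

variable {F : Type*} [Field F] [Fintype F] [DecidableEq F] {m : ℕ}
variable {V : Type*} [AddCommGroup V] [Module ℂ V] [FiniteDimensional ℂ V]
  (ρ : Representation ℂ (SpecialLinearGroup (Fin (m + 1)) F) V) (ψ : AddChar F ℂ)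

theorem lev_mem_zero (A : GL (Fin m) F) :
    ∀ x ∈ LinearMap.range (pr ρ ψ (0 : Fin m → F)),
      ρ (lev A) x ∈ LinearMap.range (pr ρ ψ (0 : Fin m → F)) := by
  rintro _ ⟨y, rfl⟩
  have h := LinearMap.congr_fun (lev_mul_pr (ψ := ψ) ρ A 0) y
  rw [act_eq_zero.mpr rfl] at h
  exact ⟨ρ (lev A) y, h.symm⟩

/-- `SL_m` on the fixed space of the radical. -/
noncomputable def theta :
    Representation ℂ (SpecialLinearGroup (Fin m) F) (LinearMap.range (pr ρ ψ (0 : Fin m → F))) where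
  toFun S := (ρ (levS S)).restrict fun x hx => lev_mem_zero ρ ψ _ x hx
  map_one' := LinearMap.ext fun x => Subtype.ext (by
    show ρ (levS 1) x.1 = x.1
    rw [map_one, map_one]; rfl)
  map_mul' S T := LinearMap.ext fun x => Subtype.ext (by
    show ρ (levS (S * T)) x.1 = ρ (levS S) (ρ (levS T) x.1)
    rw [map_mul, map_mul]; rfl)

theorem theta_apply (S : SpecialLinearGroup (Fin m) F)
    (x : LinearMap.range (pr ρ ψ (0 : Fin m → F))) : (theta ρ ψ S x : V) = ρ (levS S) x.1 := rfl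

variable {ψ} (hψ : ψ ≠ 1)
include hψ

theorem char_theta (S : SpecialLinearGroup (Fin m) F) :
    (theta ρ ψ).character S =
      LinearMap.trace ℂ V (ρ (lev (SpecialLinearGroup.toGL S)) * pr ρ ψ 0) := by
  have hmem : ∀ x, (ρ (levS S) * pr ρ ψ (0 : Fin m → F)) x ∈
      LinearMap.range (pr ρ ψ (0 : Fin m → F)) :=
    fun x => lev_mem_zero ρ ψ _ _ ⟨x, rfl⟩
  have h : theta ρ ψ S = (ρ (levS S) * pr ρ ψ (0 : Fin m → F)).restrict (fun x _ => hmem x) :=
    LinearMap.ext fun x => Subtype.ext (by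
      show ρ (levS S) x.1 = ρ (levS S) (pr ρ ψ 0 x.1)
      rw [(isProj_pr ρ hψ 0).map_id x.1 x.2])
  rw [Representation.character, h, LinearMap.trace_restrict_eq_of_forall_mem _ _ hmem]
  rfl

theorem trace_lev_pr_of_ne {A : GL (Fin m) F} {w : Fin m → F} (h : act A w ≠ w) :
    LinearMap.trace ℂ V (ρ (lev A) * pr ρ ψ w) = 0 := by
  have h1 : ρ (lev A) * pr ρ ψ w = ρ (lev A) * pr ρ ψ w * pr ρ ψ w := by
    rw [mul_assoc, pr_mul_pr ρ hψ, if_pos rfl]
  rw [h1, LinearMap.trace_mul_comm, lev_mul_pr, ← mul_assoc, pr_mul_pr ρ hψ, if_neg (Ne.symm h),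
    zero_mul, map_zero]

/-- Character of a transvection of the Levi complement acting trivially on the weights it fixes. -/
theorem char_levS_tv (hm : Trans F m) (hM : mult ρ ψ = 1) {v φ : Fin m → F} (h : φ ⬝ᵥ v = 0)
    (hv : v ≠ 0) (hφ : φ ≠ 0)
    (hfix : ∀ w : Fin m → F, w ≠ 0 → φ ⬝ᵥ w = 0 →
      ρ (levS (tv v φ h)) * pr ρ ψ w = pr ρ ψ w) :
    ρ.character (levS (tv v φ h)) =
      (theta ρ ψ).character (tv v φ h) + ((Fintype.card F : ℂ) ^ (m - 1) - 1) := by
  set A : GL (Fin m) F := SpecialLinearGroup.toGL (tv v φ h)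
  have hA : levS (tv v φ h) = lev A := rfl
  have h1 : ρ (lev A) = ∑ w, ρ (lev A) * pr ρ ψ w := by
    rw [← Finset.mul_sum, sum_pr ρ hψ, mul_one]
  rw [Representation.character, hA, h1, map_sum, ← Finset.add_sum_erase _ _ (Finset.mem_univ 0),
    ← char_theta ρ hψ]
  congr 1
  rw [Finset.sum_congr rfl (g := fun w : Fin m → F => if φ ⬝ᵥ w = 0 then (1 : ℂ) else 0)]
  · have h2 := card_ker_dot (F := F) hφ
    have h3 : ∑ w : Fin m → F, (if φ ⬝ᵥ w = 0 then (1 : ℂ) else 0) =
        (Fintype.card F : ℂ) ^ (m - 1) := by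
      rw [Finset.sum_boole, h2, Nat.cast_pow]
    rw [← Finset.sum_erase_add _ _ (Finset.mem_univ (0 : Fin m → F)), dotProduct_zero,
      if_pos rfl] at h3
    rw [← h3, add_sub_cancel_right]
  · intro w hw
    have hw0 := Finset.ne_of_mem_erase hw
    split_ifs with hd
    · rw [show ρ (lev A) * pr ρ ψ w = pr ρ ψ w from hfix w hw0 hd, trace_pr_eq ρ hψ hm hw0, hM,
        Nat.cast_one]
    · exact trace_lev_pr_of_ne ρ hψ fun e => hd ((act_tv_eq_iff h hv w).mp e)

theorem finrank_range_pr (hm : Trans F m) {w : Fin m → F} (hw : w ≠ 0) :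
    finrank ℂ (LinearMap.range (pr ρ ψ w)) = mult ρ ψ := by
  have := trace_pr_eq ρ hψ hm hw
  rwa [trace_pr ρ hψ, Nat.cast_inj] at this

theorem exists_scalar (hm : Trans F m) (hM : mult ρ ψ = 1) {w : Fin m → F} (hw : w ≠ 0)
    {A : GL (Fin m) F} (hA : act A w = w) :
    ∃ c : ℂ, ∀ x ∈ LinearMap.range (pr ρ ψ w), ρ (lev A) x = c • x := by
  have h1 : finrank ℂ (LinearMap.range (pr ρ ψ w)) = 1 := by rw [finrank_range_pr ρ hψ hm hw, hM]
  obtain ⟨⟨e, he⟩, he0, hall⟩ := finrank_eq_one_iff'.mp h1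
  have hAe : ρ (lev A) e ∈ LinearMap.range (pr ρ ψ w) := by
    obtain ⟨y, rfl⟩ := he
    have h := LinearMap.congr_fun (lev_mul_pr (ψ := ψ) ρ A w) y
    rw [hA] at h
    exact ⟨ρ (lev A) y, h.symm⟩
  obtain ⟨c, hc⟩ := hall ⟨_, hAe⟩
  refine ⟨c, fun x hx => ?_⟩
  obtain ⟨a, ha⟩ := hall ⟨x, hx⟩
  rw [show x = a • e from (congrArg Subtype.val ha).symm, map_smul,
    ← show c • e = ρ (lev A) e from congrArg Subtype.val hc, smul_comm]

/-- Commutators in the stabiliser act trivially on a weight space of dimension one. -/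
theorem comm_mul_pr (hm : Trans F m) (hM : mult ρ ψ = 1) {w : Fin m → F} (hw : w ≠ 0)
    {X Y : GL (Fin m) F} (hX : act X w = w) (hY : act Y w = w) :
    ρ (lev (X * Y * X⁻¹ * Y⁻¹)) * pr ρ ψ w = pr ρ ψ w := by
  have hX' : act X⁻¹ w = w := by nth_rw 1 [← hX]; exact act_inv_act X w
  have hY' : act Y⁻¹ w = w := by nth_rw 1 [← hY]; exact act_inv_act Y w
  obtain ⟨a, ha⟩ := exists_scalar ρ hψ hm hM hw hX
  obtain ⟨b, hb⟩ := exists_scalar ρ hψ hm hM hw hY
  obtain ⟨a', ha'⟩ := exists_scalar ρ hψ hm hM hw hX'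
  obtain ⟨b', hb'⟩ := exists_scalar ρ hψ hm hM hw hY'
  refine LinearMap.ext fun z => ?_
  set x := pr ρ ψ w z
  have hx : x ∈ LinearMap.range (pr ρ ψ w) := ⟨z, rfl⟩
  have hmem : ∀ c : ℂ, c • x ∈ LinearMap.range (pr ρ ψ w) := fun c => Submodule.smul_mem _ c hx
  have e1 : (a * a') • x = x := by
    have h : ρ (lev X) (ρ (lev X⁻¹) x) = x := by
      rw [← Module.End.mul_apply, ← map_mul, ← map_mul, mul_inv_cancel, map_one, map_one]; rfl
    rwa [ha' x hx, ha _ (hmem _), smul_smul] at h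
  have e2 : (b * b') • x = x := by
    have h : ρ (lev Y) (ρ (lev Y⁻¹) x) = x := by
      rw [← Module.End.mul_apply, ← map_mul, ← map_mul, mul_inv_cancel, map_one, map_one]; rfl
    rwa [hb' x hx, hb _ (hmem _), smul_smul] at h
  show ρ (lev (X * Y * X⁻¹ * Y⁻¹)) x = x
  rw [map_mul, map_mul, map_mul, map_mul, map_mul, map_mul, Module.End.mul_apply,
    Module.End.mul_apply, Module.End.mul_apply, hb' x hx, ha' _ (hmem _), smul_smul,
    hb _ (hmem _), smul_smul, ha _ (hmem _), smul_smul,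
    show a * (b * (a' * b')) = a * a' * (b * b') by ring, mul_smul, e2, e1]

/-- The value of `theta` on transvections. -/
theorem theta_transv (hm : 2 ≤ m) (hc : CommCond F m) (hM : mult ρ ψ = 1)
    {T : SpecialLinearGroup (Fin m) F} (hT : IsTransv T) :
    (theta ρ ψ).character T = (fdim ρ ψ : ℂ) - (Fintype.card F : ℂ) ^ (m - 1) := by
  obtain ⟨v, φ, h, hv, hφ, rfl⟩ := hT
  have htr := trans_of_two_le (F := F) hm
  have h1 := char_levS_tv ρ hψ htr hM h hv hφ fun w hw hd => by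
    obtain ⟨X, Y, hX, hY, e⟩ := comm_tv hc h hv hφ hd
    show ρ (lev (SpecialLinearGroup.toGL (tv v φ h))) * _ = _
    rw [e]
    exact comm_mul_pr ρ hψ htr hM hw hX hY
  have hne : (1 : Fin m → F) ≠ 0 := one_ne_zero_vec (by omega)
  obtain ⟨c, hc⟩ := isConj_iff.mp ((isTransv_uMat hne).isConj (by omega)
    (isTransv_levS ⟨v, φ, h, hv, hφ, rfl⟩))
  rw [← hc, Representation.char_conj, char_uMat ρ hψ htr hne, hM, Nat.cast_one] at h1
  linear_combination -h1

theorem transv_dual (hm : 2 ≤ m) (hM : mult ρ ψ = 1) :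
    mult (ρ.comp dual) ψ = 1 ∧ fdim (ρ.comp dual) ψ = fdim ρ ψ := by
  have htr := trans_of_two_le (F := F) hm
  have hne : (1 : Fin m → F) ≠ 0 := one_ne_zero_vec (by omega)
  have e1 := finrank_eq ρ hψ htr
  have e2 := finrank_eq (ρ.comp dual) hψ htr
  have e3 := char_uMat ρ hψ htr hne
  have e4 := char_uMat (ρ.comp dual) hψ htr hne
  obtain ⟨c, hc⟩ := isConj_iff.mp ((isTransv_dual (isTransv_uMat hne)).isConj (by omega)
    (isTransv_uMat hne))
  have e5 : Representation.character (ρ.comp dual) (uMat (1 : Fin m → F)) =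
      ρ.character (uMat 1) := by
    nth_rw 2 [← hc]
    rw [Representation.char_conj]
    rfl
  rw [e4, e3, hM, Nat.cast_one] at e5
  have e6 : fdim (ρ.comp dual) ψ + 1 = fdim ρ ψ + mult (ρ.comp dual) ψ :=
    Nat.cast_injective (R := ℂ) (by push_cast; linear_combination e5)
  rw [hM, one_mul] at e1
  have hq : 2 ≤ Fintype.card F ^ m := by
    calc 2 ≤ Fintype.card F := Fintype.one_lt_card
    _ ≤ Fintype.card F ^ m := Nat.le_self_pow (by omega) _
  rcases Nat.lt_trichotomy (mult (ρ.comp dual) ψ) 1 with hlt | heq | hgt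
  · rw [Nat.lt_one_iff.mp hlt, zero_mul] at e2
    omega
  · exact ⟨heq, by omega⟩
  · obtain ⟨k, hk⟩ : ∃ k, mult (ρ.comp dual) ψ = k + 2 := ⟨_, (Nat.sub_add_cancel hgt).symm⟩
    rw [hk, add_mul] at e2
    have : k ≤ k * (Fintype.card F ^ m - 1) := Nat.le_mul_of_pos_right k (by omega)
    omega

omit hψ
variable (ψ)

/-- The invariants of the derived Levi complement. -/
noncomputable abbrev levFix : Submodule ℂ V := Representation.invariants (ρ.comp levS)

theorem mem_levFix {y : V} :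
    y ∈ levFix ρ ↔ ∀ S : SpecialLinearGroup (Fin m) F, ρ (levS S) y = y :=
  Representation.mem_invariants _ y

theorem levFix_dual : levFix (ρ.comp dual) = levFix ρ := by
  ext y
  simp only [mem_levFix]
  constructor
  · intro h S
    obtain ⟨S, rfl⟩ := dual_surjective S
    rw [← dual_levS]
    exact h S
  · intro h S
    show ρ (dual (levS S)) y = y
    rw [dual_levS]
    exact h _

variable {ψ}
include hψ

theorem mem_zero_of_pr_eq_zero (hm : 2 ≤ m) {y : V} (hy : y ∈ levFix ρ) {w₀ : Fin m → F}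
    (hw₀ : w₀ ≠ 0) (h0 : pr ρ ψ w₀ y = 0) : y ∈ LinearMap.range (pr ρ ψ (0 : Fin m → F)) := by
  refine ⟨y, ?_⟩
  have h : ∀ w : Fin m → F, w ≠ 0 → pr ρ ψ w y = 0 := by
    intro w hw
    obtain ⟨S, hS⟩ := exists_act_eq hm hw₀ hw
    have h1 := LinearMap.congr_fun (lev_mul_pr (ψ := ψ) ρ (SpecialLinearGroup.toGL S) w₀) y
    rw [hS, Module.End.mul_apply, Module.End.mul_apply, h0, map_zero,
      show ρ (lev (SpecialLinearGroup.toGL S)) y = y from (mem_levFix ρ).mp hy S] at h1
    exact h1.symm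
  have hsum := LinearMap.congr_fun (sum_pr ρ hψ) y
  rwa [LinearMap.sum_apply, Finset.sum_eq_single 0 (fun w _ hw => h w hw) (by simp)] at hsum

theorem finrank_levFix_le (hm : 2 ≤ m) (hM : mult ρ ψ = 1) :
    finrank ℂ (levFix ρ) ≤
      finrank ℂ (levFix ρ ⊓ LinearMap.range (pr ρ ψ (0 : Fin m → F)) : Submodule ℂ V) + 1 := by
  set e : Fin m → F := 1
  have he : e ≠ 0 := one_ne_zero_vec (by omega)
  let f := (pr ρ ψ e).domRestrict (levFix ρ)
  have h1 := f.finrank_range_add_finrank_ker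
  have h2 : finrank ℂ (LinearMap.range f) ≤ 1 := by
    rw [← hM]
    refine Submodule.finrank_mono ?_
    rintro _ ⟨x, rfl⟩
    exact ⟨x.1, rfl⟩
  have h3 : finrank ℂ (LinearMap.ker f) ≤
      finrank ℂ (levFix ρ ⊓ LinearMap.range (pr ρ ψ (0 : Fin m → F)) : Submodule ℂ V) := by
    rw [← Submodule.finrank_map_subtype_eq (levFix ρ) (LinearMap.ker f)]
    refine Submodule.finrank_mono ?_
    rintro _ ⟨x, hx, rfl⟩
    exact ⟨x.2, mem_zero_of_pr_eq_zero ρ hψ hm x.2 he hx⟩
  omega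

omit hψ in
theorem apply_eq_of_fixed_both (y : V) (h1 : ∀ r : Fin m → F, ρ (uMat r) y = y)
    (h2 : ∀ r : Fin m → F, ρ (dual (uMat r)) y = y) : y ∈ Representation.invariants ρ := by
  let H : Subgroup (SpecialLinearGroup (Fin (m + 1)) F) :=
    { carrier := {g | ρ g y = y}
      mul_mem' := fun {a b} ha hb => by
        show ρ (a * b) y = y
        rw [map_mul, Module.End.mul_apply, hb, ha]
      one_mem' := by
        show ρ 1 y = y
        rw [map_one]; rfl
      inv_mem' := fun {a} ha => by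
        show ρ a⁻¹ y = y
        conv_lhs => rw [← ha]
        rw [← Module.End.mul_apply, ← map_mul, inv_mul_cancel, map_one]; rfl }
  have hH := eq_top_of_uMat_mem H h1 h2
  exact (Representation.mem_invariants _ _).mpr fun g => show g ∈ H from hH ▸ Subgroup.mem_top g

/-- With no invariants, the derived Levi complement fixes at most a line in the fixed space of the
radical. -/
theorem finrank_fix_theta_le_one (hm : 2 ≤ m) (hM : mult ρ ψ = 1)
    (hinv : Representation.invariants ρ = ⊥) :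
    finrank ℂ (levFix ρ ⊓ LinearMap.range (pr ρ ψ (0 : Fin m → F)) : Submodule ℂ V) ≤ 1 := by
  have h1 := finrank_levFix_le (ρ.comp dual) hψ hm (transv_dual ρ hψ hm hM).1
  rw [levFix_dual] at h1
  set A := (levFix ρ ⊓ LinearMap.range (pr ρ ψ (0 : Fin m → F)) : Submodule ℂ V) with hA
  set B := (levFix ρ ⊓ LinearMap.range (pr (ρ.comp dual) ψ (0 : Fin m → F)) : Submodule ℂ V)
    with hB
  have h2 : A ⊓ B = ⊥ := by
    rw [eq_bot_iff, ← hinv]
    rintro y ⟨⟨-, ha⟩, ⟨-, hb⟩⟩
    exact apply_eq_of_fixed_both ρ y (uMat_apply_of_mem ρ hψ ha)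
      (uMat_apply_of_mem (ρ.comp dual) hψ hb)
  have h3 := Submodule.finrank_sup_add_finrank_inf_eq A B
  rw [h2, finrank_bot, add_zero] at h3
  have h4 : finrank ℂ (A ⊔ B : Submodule ℂ V) ≤ finrank ℂ (levFix ρ) :=
    Submodule.finrank_mono (sup_le inf_le_left inf_le_left)
  omega

/-- If the derived Levi complement is trivial on the fixed space of the radical, this space is
fixed by the whole group. -/
theorem fdim_le_finrank_invariants {j : ℕ}
    (ρ : Representation ℂ (SpecialLinearGroup (Fin (j + 1 + 1)) F) V) (hj : 1 ≤ j)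
    (htr : Trans F j) (hM : mult ρ ψ = 1) (hsmall : fdim ρ ψ < Fintype.card F ^ j - 1) :
    fdim ρ ψ ≤ finrank ℂ (Representation.invariants ρ) := by
  have hm : 2 ≤ j + 1 := by omega
  obtain ⟨hM', hf'⟩ := transv_dual ρ hψ hm hM
  have key : ∀ σ : Representation ℂ (SpecialLinearGroup (Fin (j + 1 + 1)) F) V,
      fdim σ ψ < Fintype.card F ^ j - 1 →
        LinearMap.range (pr σ ψ (0 : Fin (j + 1) → F)) ≤ levFix σ := by
    intro σ hσ y hy
    rw [mem_levFix]
    intro S
    have := eq_one_of_finrank_lt (theta σ ψ) hψ htr hσ S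
    exact congrArg Subtype.val (LinearMap.congr_fun this ⟨y, hy⟩)
  have hY : levFix ρ ≤ LinearMap.range (pr ρ ψ (0 : Fin (j + 1) → F)) := by
    intro y hy
    by_contra hy0
    set v : Fin (j + 1) → F := Pi.single 0 1
    set φ : Fin (j + 1) → F := Pi.single (Fin.last j) 1
    have hlast : (Fin.last j) ≠ 0 := by
      intro e; have := congrArg Fin.val e; simp at this; omega
    have h : φ ⬝ᵥ v = 0 := by simp [v, φ, hlast.symm]
    have hv : v ≠ 0 := by simp [v]
    have hφ : φ ≠ 0 := by simp [φ]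
    have htr' := trans_of_two_le (F := F) hm
    have hne : (1 : Fin (j + 1) → F) ≠ 0 := one_ne_zero_vec (by omega)
    have h1 := char_levS_tv ρ hψ htr' hM h hv hφ fun w hw hd => by
      have hz : pr ρ ψ w y ≠ 0 := fun e => hy0 (mem_zero_of_pr_eq_zero ρ hψ hm hy hw e)
      obtain ⟨c, hc⟩ := exists_scalar ρ hψ htr' hM hw
        (A := SpecialLinearGroup.toGL (tv v φ h)) ((act_tv_eq_iff h hv w).mpr hd)
      have e := LinearMap.congr_fun (lev_mul_pr (ψ := ψ) ρ (SpecialLinearGroup.toGL (tv v φ h)) w) y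
      rw [Module.End.mul_apply, Module.End.mul_apply, (act_tv_eq_iff h hv w).mpr hd,
        show ρ (lev (SpecialLinearGroup.toGL (tv v φ h))) y = y from (mem_levFix ρ).mp hy _,
        hc _ ⟨y, rfl⟩] at e
      have hc1 : c = 1 := smul_left_injective ℂ hz (e.trans (one_smul ℂ _).symm)
      refine LinearMap.ext fun z => ?_
      show ρ (lev _) (pr ρ ψ w z) = _
      rw [hc _ ⟨z, rfl⟩, hc1, one_smul]
    obtain ⟨c, hc⟩ := isConj_iff.mp ((isTransv_uMat hne).isConj (by omega)
      (isTransv_levS ⟨v, φ, h, hv, hφ, rfl⟩))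
    rw [← hc, Representation.char_conj, char_uMat ρ hψ htr' hne, hM, Nat.cast_one] at h1
    have h2 : (theta ρ ψ).character (tv v φ h) = (fdim ρ ψ : ℂ) := by
      rw [Representation.character, eq_one_of_finrank_lt (theta ρ ψ) hψ htr hsmall,
        LinearMap.trace_one]
      rfl
    rw [h2, Nat.add_sub_cancel] at h1
    have h3 : ((Fintype.card F ^ j : ℕ) : ℂ) = ((0 : ℕ) : ℂ) := by
      push_cast; linear_combination -h1
    have h4 := pow_pos (Fintype.card_pos (α := F)) j
    have h5 := Nat.cast_injective h3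
    omega
  rw [← hf']
  refine Submodule.finrank_mono fun y hy => ?_
  have h1 : y ∈ levFix (ρ.comp dual) := key _ (hf' ▸ hsmall) hy
  rw [levFix_dual] at h1
  exact apply_eq_of_fixed_both ρ y (uMat_apply_of_mem ρ hψ (hY h1))
    (uMat_apply_of_mem (ρ.comp dual) hψ hy)

end Cfsg.Agent.H44.SLMin
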