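import Cfsg.Agent.H44.SLMinDegree.Count
import Mathlib.Analysis.Fourier.FiniteAbelian.PontryaginDuality

/-!
# The minimal degree of `SL_n(q)`
-/

set_option autoImplicit false

namespace Cfsg.Agent.H44.SLMin

open Matrix Module
open Cfsg.Agent.H64.SLIndex

/-- `1 + q + ⋯ + q^{m-1}`. -/
def geom (q m : ℕ) : ℕ := ∑ i ∈ Finset.range m, q ^ i

theorem geom_succ (q m : ℕ) : geom q (m + 1) = q * geom q m + 1 := by
  simp [geom, Finset.sum_range_succ', Finset.mul_sum, pow_succ']

theorem geom_pow (q m : ℕ) (hq : 1 ≤ q) : (q - 1) * geom q m + 1 = q ^ m := by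
  obtain ⟨r, rfl⟩ : ∃ r, q = r + 1 := ⟨q - 1, by omega⟩
  induction m with
  | zero => simp [geom]
  | succ m ih =>
    rw [geom_succ, pow_succ', ← ih]
    simp only [Nat.add_sub_cancel]
    ring

theorem geom_mono (q : ℕ) {a b : ℕ} (h : a ≤ b) : geom q a ≤ geom q b :=
  Finset.sum_le_sum_of_subset (Finset.range_subset_range.mpr h)

theorem le_geom_mul {q m d M : ℕ} (hq : 2 ≤ q) (hM : 2 ≤ M) (hd : M * (q ^ m - 1) ≤ d) :
    q * geom q m ≤ d := by
  have h1 := geom_pow q m (by omega)
  have h2 : q * geom q m ≤ 2 * ((q - 1) * geom q m) := by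
    rw [← mul_assoc]; exact Nat.mul_le_mul_right _ (by omega)
  have h3 : 2 * ((q - 1) * geom q m) ≤ M * (q ^ m - 1) :=
    Nat.mul_le_mul hM (le_of_eq (by omega))
  omega

variable {F : Type*} [Field F] [Fintype F] [DecidableEq F]

theorem irr_bound {ψ : AddChar F ℂ} (hψ : ψ ≠ 1) :
    ∀ m : ℕ, 2 ≤ m → ((m + 1, Fintype.card F) ≠ (3, 2) ∧ (m + 1, Fintype.card F) ≠ (3, 4) ∧
      (m + 1, Fintype.card F) ≠ (4, 2) ∧ (m + 1, Fintype.card F) ≠ (4, 3)) →
    ∀ (W : Type) [AddCommGroup W] [Module ℂ W] [FiniteDimensional ℂ W]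
      (σ : Representation ℂ (SpecialLinearGroup (Fin (m + 1)) F) W),
      σ.IsIrreducible → (∃ g, σ g ≠ 1) → Fintype.card F * geom (Fintype.card F) m ≤ finrank ℂ W := by
  set q := Fintype.card F with hqdef
  intro m
  induction m using Nat.strong_induction_on with
  | _ m ih =>
  intro hm hex W _ _ _ ρ hρ hnt
  haveI := hρ
  obtain ⟨g₀, hg₀⟩ := hnt
  have hq : 2 ≤ q := Fintype.one_lt_card
  have hQ : q ^ m = (q - 1) * geom q m + 1 := (geom_pow q m (by omega)).symm
  have htr := trans_of_two_le (F := F) hm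
  have hfr : finrank ℂ W = fdim ρ ψ + mult ρ ψ * (q ^ m - 1) := finrank_eq ρ hψ htr
  rcases Nat.lt_trichotomy (mult ρ ψ) 1 with h0 | hM | h2
  · exact absurd (eq_one_of_mult_eq_zero ρ hψ hm (Nat.lt_one_iff.mp h0) g₀) hg₀
  swap
  · exact le_geom_mul hq (show 2 ≤ mult ρ ψ by omega) (by omega)
  rw [hM, one_mul] at hfr
  by_contra hlt
  have hdvd := dvd_classSize_mul ρ hψ hm hM
  have hK := class_card_mul (F := F) hm
  set K := (Subgroup.centralizer ({uMat (1 : Fin m → F)} :
        Set (SpecialLinearGroup (Fin (m + 1)) F))).index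
  rw [← hqdef] at hdvd hK
  have hN : Nat.card F = q := Nat.card_eq_fintype_card
  simp only [ne_eq, Prod.mk.injEq] at hex
  obtain ⟨he1, he2, he3, he4⟩ := hex
  have hcc : CommCond F m := by
    rw [CommCond, hN]; omega
  have hT : ∀ T : SpecialLinearGroup (Fin m) F, IsTransv T →
      (theta ρ ψ).character T = (fdim ρ ψ : ℂ) - ((q : ℕ) : ℂ) ^ (m - 1) :=
    fun T hT => theta_transv ρ hψ hm hcc hM hT
  have hdiv : ∀ d j, d + j = q * geom q m → d ∣ K * q ^ m →
      d ∣ j * (j + 1) * (q - 1) * q ^ (m - 1) := by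
    intro d j e hd
    have h1 : K * q ^ m = (d + j) * (d + j + 1) * (q - 1) * q ^ (m - 1) := by
      apply Nat.eq_of_mul_eq_mul_right (show 0 < q - 1 by omega)
      rw [mul_right_comm K, hK, ← geom_pow q (m + 1) (by omega), geom_succ, hQ, Nat.add_sub_cancel,
        Nat.add_sub_cancel, e]
      have hp : (q - 1) * geom q m + 1 = q ^ (m - 1) * q := by
        rw [← pow_succ, Nat.sub_add_cancel (by omega : 1 ≤ m), hQ]
      rw [hp]
      ring
    have h2 : (d + j) * (d + j + 1) * (q - 1) * q ^ (m - 1) =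
        d * ((d + 2 * j + 1) * (q - 1) * q ^ (m - 1)) + j * (j + 1) * (q - 1) * q ^ (m - 1) := by
      ring
    rw [h1, h2] at hd
    exact (Nat.dvd_add_right (Dvd.intro _ rfl)).mp hd
  -- the degree is at least one less than the bound, except for the small cases
  obtain ⟨j, rfl⟩ : ∃ j, m = j + 1 := ⟨m - 1, by omega⟩
  rw [Nat.add_sub_cancel] at hT hdiv
  have hj1 : finrank ℂ W + 1 = q * geom q (j + 1) → False := by
    intro e
    have h := hdiv _ 1 e hdvd
    have hcop : Nat.Coprime (finrank ℂ W) (q ^ j) := by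
      refine Nat.Coprime.pow_right _ ?_
      have h1 : Nat.gcd (finrank ℂ W) q ∣ finrank ℂ W + 1 := by
        rw [e]; exact dvd_mul_of_dvd_left (Nat.gcd_dvd_right _ _) _
      exact Nat.dvd_one.mp ((Nat.dvd_add_right (Nat.gcd_dvd_left _ _)).mp h1)
    have h2 := Nat.le_of_dvd (show 0 < 1 * (1 + 1) * (q - 1) by omega)
      (hcop.dvd_of_dvd_mul_right h)
    have h3 : q * (1 + q) ≤ q * geom q (j + 1) :=
      Nat.mul_le_mul_left _ (le_trans (by simp [geom, Finset.sum_range_succ])
        (geom_mono q (show 2 ≤ j + 1 by omega)))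
    have h4 : 2 * q ≤ q * q := Nat.mul_le_mul_right q hq
    rw [show q * (1 + q) = q + q * q by ring] at h3
    omega
  obtain rfl | hj : j = 1 ∨ 2 ≤ j := by omega
  · -- `SL_3`
    have hsum := sum_char_uMat (theta ρ ψ) hψ
    rw [← Finset.add_sum_erase _ _ (Finset.mem_univ 0), uMat_zero, Representation.char_one,
      Finset.sum_congr rfl fun r hr => hT _ (isTransv_uMat (Finset.ne_of_mem_erase hr)),
      Finset.sum_const, Finset.card_erase_of_mem (Finset.mem_univ _), Finset.card_univ,
      Fintype.card_pi_const, pow_one, pow_one, nsmul_eq_mul, Nat.cast_sub (by omega : 1 ≤ q)] at hsum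
    have hfd : finrank ℂ (LinearMap.range (pr ρ ψ (0 : Fin 2 → F))) = fdim ρ ψ := rfl
    rw [hfd] at hsum
    have hf : fdim ρ ψ + 1 = fdim (theta ρ ψ) ψ + q := by
      apply Nat.eq_of_mul_eq_mul_left (show 0 < q by omega)
      apply Nat.cast_injective (R := ℂ)
      push_cast
      push_cast at hsum
      linear_combination hsum
    have hg2 : geom q (1 + 1) = 1 + q := by simp [geom, Finset.sum_range_succ]
    rw [hg2] at hlt hj1 hdiv
    have hq2 : q ^ (1 + 1) = q * q := by ring
    rw [hq2] at hfr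
    have hqq : q * (1 + q) = q + q * q := by ring
    have h22 : 4 ≤ q * q := by nlinarith
    have hd : finrank ℂ W + 2 = q * (1 + q) := by
      rcases Nat.lt_or_ge (finrank ℂ W + 2) (q * (1 + q)) with h | h
      · omega
      · by_contra hne
        exact hj1 (by omega)
    have h := hdiv _ 2 hd hdvd
    rw [show finrank ℂ W = (q + 2) * (q - 1) by
      obtain ⟨r, hr⟩ : ∃ r, q = r + 2 := ⟨q - 2, by omega⟩
      rw [hr] at hd ⊢
      rw [show r + 2 - 1 = r + 1 by omega]
      nlinarith,
      show 2 * (2 + 1) * (q - 1) * q ^ 1 = 6 * q * (q - 1) by ring,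
      Nat.mul_dvd_mul_iff_right (by omega)] at h
    have h12 : q + 2 ∣ 12 := by
      have h' : q + 2 ∣ 6 * q + 12 := ⟨6, by ring⟩
      exact (Nat.dvd_add_right h).mp h'
    have := Nat.le_of_dvd (by norm_num) h12
    have hpp := FiniteField.isPrimePow_card F
    rw [← hqdef] at hpp
    have hle : q ≤ 10 := by omega
    clear_value q
    interval_cases q <;> first
      | omega
      | (exact absurd h12 (by decide))
      | (exact absurd (isPrimePow_nat_iff_bounded _ |>.mp hpp) (by decide))
  · -- `n ≥ 4`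
    have hne : (1 : Fin j → F) ≠ 0 := one_ne_zero_vec (by omega)
    have htr' := trans_of_two_le (F := F) hj
    have e1 : fdim ρ ψ = fdim (theta ρ ψ) ψ + mult (theta ρ ψ) ψ * (q ^ j - 1) :=
      finrank_eq (theta ρ ψ) hψ htr'
    have e2 := char_uMat (theta ρ ψ) hψ htr' hne
    rw [hT _ (isTransv_uMat hne)] at e2
    have hqj : 1 ≤ q ^ j := Nat.one_le_pow _ _ (by omega)
    have hM' : mult (theta ρ ψ) ψ = 1 := by
      have e3 : fdim ρ ψ + mult (theta ρ ψ) ψ = fdim (theta ρ ψ) ψ + q ^ j :=
        Nat.cast_injective (R := ℂ) (by push_cast; linear_combination e2)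
      apply Nat.eq_of_mul_eq_mul_right (show 0 < q ^ j by omega)
      have : mult (theta ρ ψ) ψ * (q ^ j - 1) + mult (theta ρ ψ) ψ =
          mult (theta ρ ψ) ψ * q ^ j := by
        rw [← Nat.mul_succ, Nat.succ_eq_add_one, Nat.sub_add_cancel hqj]
      omega
    rw [hM', one_mul] at e1
    by_cases hex' : (j + 1, q) ≠ (3, 2) ∧ (j + 1, q) ≠ (3, 4) ∧ (j + 1, q) ≠ (4, 2) ∧
        (j + 1, q) ≠ (4, 3)
    · have hθ : ∃ g, theta ρ ψ g ≠ 1 := by
        refine ⟨uMat 1, fun h => ?_⟩
        have := hT _ (isTransv_uMat hne)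
        rw [Representation.character, h, LinearMap.trace_one] at this
        have h0 : ((q ^ j : ℕ) : ℂ) = ((0 : ℕ) : ℂ) := by
          push_cast
          have hfd : finrank ℂ (LinearMap.range (pr ρ ψ (0 : Fin (j + 1) → F))) = fdim ρ ψ := rfl
          rw [hfd] at this
          linear_combination this
        have := Nat.cast_injective h0
        omega
      have hb := bound_of_irreducible (fun W' _ _ _ σ hσ hne' =>
        ih j (by omega) hj hex' W' σ hσ hne') _ _ (theta ρ ψ) rfl hθ
      change q * geom q j ≤ fdim ρ ψ at hb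
      have h1 := geom_succ q j
      have h2 : q * geom q (j + 1) = (q - 1) * geom q (j + 1) + geom q (j + 1) := by
        rw [← Nat.succ_mul]; congr 1; omega
      exact hj1 (by omega)
    · simp only [ne_eq, Prod.mk.injEq] at hex'
      have hsmall : fdim (theta ρ ψ) ψ < q ^ (j - 1) - 1 → fdim (theta ρ ψ) ψ ≤ 1 := by
        intro hs
        obtain ⟨k, rfl⟩ : ∃ k, j = k + 1 := ⟨j - 1, by omega⟩
        rw [Nat.add_sub_cancel] at hs
        have htk : Trans F k := by
          rcases Nat.lt_or_ge k 2 with hk | hk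
          · obtain rfl : k = 1 := by omega
            have hq4 : Fintype.card F = 4 := by omega
            exact trans_one fun x => ⟨x ^ 2, by
              rw [← pow_add]; conv_lhs => rw [← FiniteField.pow_card x, hq4]⟩
          · exact trans_of_two_le hk
        have h1 := fdim_le_finrank_invariants hψ (theta ρ ψ) (by omega) htk hM' hs
        have hirr2 : 2 ≤ finrank ℂ W := by
          have : 2 ≤ q ^ (k + 1 + 1) - 1 := by
            have : 4 ≤ q ^ (k + 1 + 1) := le_trans (show 4 ≤ 2 ^ 2 by norm_num)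
              ((Nat.pow_le_pow_left hq 2).trans (Nat.pow_le_pow_right (by omega) (by omega)))
            omega
          omega
        have h2 := finrank_fix_theta_le_one ρ hψ (by omega) hM (invariants_eq_bot ρ hirr2)
        refine h1.trans (le_trans ?_ h2)
        rw [← Submodule.finrank_map_subtype_eq _ (Representation.invariants (theta ρ ψ))]
        refine Submodule.finrank_mono ?_
        rintro _ ⟨x, hx, rfl⟩
        refine ⟨(mem_levFix ρ).mpr fun S => ?_, x.2⟩
        exact congrArg Subtype.val ((Representation.mem_invariants _ x).mp hx S)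
      rcases (show (j = 2 ∧ q = 4) ∨ (j = 3 ∧ q = 2) ∨ (j = 3 ∧ q = 3) by omega) with
        ⟨rfl, hq'⟩ | ⟨rfl, hq'⟩ | ⟨rfl, hq'⟩
      all_goals
        rw [hq'] at hfr e1 hdvd hK hlt hsmall
        norm_num [geom, Finset.sum_range_succ] at hfr e1 hK hlt hsmall
      · have hKv : K = 5355 := by omega
        rw [hKv, hfr, e1] at hdvd
        have : fdim (theta ρ ψ) ψ ≤ 5 := by omega
        generalize fdim (theta ρ ψ) ψ = f at *
        interval_cases f <;> first | omega | (norm_num at hdvd)
      · have hKv : K = 465 := by omega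
        rw [hKv, hfr, e1] at hdvd
        have : fdim (theta ρ ψ) ψ ≤ 7 := by omega
        generalize fdim (theta ρ ψ) ψ = f at *
        interval_cases f <;> first | omega | (norm_num at hdvd)
      · have hKv : K = 9680 := by omega
        rw [hKv, hfr, e1] at hdvd
        have : fdim (theta ρ ψ) ψ ≤ 13 := by omega
        generalize fdim (theta ρ ψ) ψ = f at *
        interval_cases f <;> first | omega | (norm_num at hdvd)

theorem geom_div (q n : ℕ) (hq : 2 ≤ q) :
    (q ^ (n + 1) - q) / (q - 1) = q * geom q n := by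
  have h := geom_pow q n (by omega)
  rw [pow_succ', ← h, mul_add, mul_one, Nat.add_sub_cancel, mul_left_comm]
  exact Nat.mul_div_cancel_left _ (by omega)

end Cfsg.Agent.H44.SLMin
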