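import Cfsg.Agent.H44.SLMinDegree.Basic

/-!
# Weight spaces of the radical in a representation
-/

set_option autoImplicit false

namespace Cfsg.Agent.H44.SLMin

open Matrix Module
open Cfsg.Agent.H64.SLIndex

variable {F : Type*} [Field F] [Fintype F] [DecidableEq F] {m : ℕ}

theorem sum_psi_dot {ψ : AddChar F ℂ} (hψ : ψ ≠ 1) (w : Fin m → F) :
    ∑ r : Fin m → F, ψ (r ⬝ᵥ w) = if w = 0 then (Fintype.card F : ℂ) ^ m else 0 := by
  split_ifs with hw
  · simp [hw, Fintype.card_pi_const]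
  · obtain ⟨i, hi⟩ := Function.ne_iff.mp hw
    simp only [Pi.zero_apply] at hi
    obtain ⟨c, hc⟩ := AddChar.ne_one_iff.mp hψ
    let χ : AddChar (Fin m → F) ℂ := ψ.compAddMonoidHom
      (AddMonoidHom.mk' (fun r : Fin m → F => r ⬝ᵥ w) fun a b => add_dotProduct a b w)
    have hne : χ ≠ 1 := AddChar.ne_one_iff.mpr ⟨Pi.single i (c * (w i)⁻¹), by
      show ψ (Pi.single i (c * (w i)⁻¹) ⬝ᵥ w) ≠ 1
      rwa [single_dotProduct, inv_mul_cancel_right₀ hi]⟩
    exact AddChar.sum_eq_zero_of_ne_one hne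

/-- The Levi complement is transitive on the non-trivial characters of the radical. -/
def Trans (F : Type*) [Field F] (m : ℕ) : Prop :=
  0 < m ∧ ∀ w : Fin m → F, w ≠ 0 → ∃ A : GL (Fin m) F, act A 1 = w

omit [Fintype F] [DecidableEq F] in
theorem one_ne_zero_vec (hm : 0 < m) : (1 : Fin m → F) ≠ 0 := fun h =>
  one_ne_zero (congrFun h ⟨0, hm⟩)

omit [Fintype F] [DecidableEq F] in
theorem trans_of_two_le (hm : 2 ≤ m) : Trans F m :=
  ⟨by omega, fun _ hw =>
    let ⟨S, hS⟩ := exists_act_eq hm (one_ne_zero_vec (by omega)) hw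
    ⟨_, hS⟩⟩

omit [Fintype F] [DecidableEq F] in
theorem trans_one (hsq : ∀ x : F, IsSquare x) : Trans F 1 := by
  refine ⟨one_pos, fun w hw => ?_⟩
  obtain ⟨a, ha⟩ := hsq (w 0)
  have ha0 : a ≠ 0 := by
    rintro rfl
    exact hw (funext fun i => by rw [Fin.fin_one_eq_zero i, ha, mul_zero]; rfl)
  refine ⟨GeneralLinearGroup.mkOfDetNeZero (Matrix.diagonal fun _ => a) (by simp [ha0]), ?_⟩
  ext i
  rw [Fin.fin_one_eq_zero i]
  simp [act, mulVec, dotProduct, ha]

variable {V : Type*} [AddCommGroup V] [Module ℂ V] [FiniteDimensional ℂ V]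
  (ρ : Representation ℂ (SpecialLinearGroup (Fin (m + 1)) F) V)

/-- The projection on the `w`-weight space of the radical. -/
noncomputable def pr (ψ : AddChar F ℂ) (w : Fin m → F) : Module.End ℂ V :=
  ((Fintype.card F : ℂ) ^ m)⁻¹ • ∑ r : Fin m → F, ψ (-(r ⬝ᵥ w)) • ρ (uMat r)

variable {ψ : AddChar F ℂ} (hψ : ψ ≠ 1)

theorem uMat_mul_pr (s w : Fin m → F) : ρ (uMat s) * pr ρ ψ w = ψ (s ⬝ᵥ w) • pr ρ ψ w := by
  rw [pr, mul_smul_comm, smul_comm]
  congr 1
  rw [Finset.mul_sum, Finset.smul_sum]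
  refine Fintype.sum_equiv (Equiv.addLeft s) _ _ fun r => ?_
  rw [mul_smul_comm, ← map_mul, ← uMat_add, smul_smul, ← AddChar.map_add_eq_mul,
    Equiv.coe_addLeft]
  congr 2
  rw [add_dotProduct]
  ring

include hψ

theorem sum_pr : ∑ w : Fin m → F, pr ρ ψ w = 1 := by
  have hQ : ((Fintype.card F : ℂ) ^ m) ≠ 0 := pow_ne_zero _ (Nat.cast_ne_zero.mpr Fintype.card_ne_zero)
  simp only [pr]
  rw [← Finset.smul_sum, Finset.sum_comm]
  simp only [← Finset.sum_smul]
  rw [Finset.sum_eq_single 0]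
  · simp [uMat_zero, Fintype.card_pi_const, hQ]
  · intro r _ hr
    have : ∑ w : Fin m → F, ψ (-(r ⬝ᵥ w)) = 0 := by
      simp only [← neg_dotProduct, dotProduct_comm (-r)]
      rw [sum_psi_dot hψ, if_neg (neg_ne_zero.mpr hr)]
    rw [this, zero_smul]
  · simp

theorem pr_mul_pr (w w' : Fin m → F) :
    pr ρ ψ w * pr ρ ψ w' = if w = w' then pr ρ ψ w' else 0 := by
  have hQ : ((Fintype.card F : ℂ) ^ m) ≠ 0 := pow_ne_zero _ (Nat.cast_ne_zero.mpr Fintype.card_ne_zero)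
  conv_lhs => arg 1; rw [pr]
  rw [smul_mul_assoc, Finset.sum_mul]
  simp only [smul_mul_assoc, uMat_mul_pr, smul_smul, ← AddChar.map_add_eq_mul]
  rw [← Finset.sum_smul, smul_smul]
  have hs : ∑ r : Fin m → F, ψ (-(r ⬝ᵥ w) + r ⬝ᵥ w') =
      if w = w' then (Fintype.card F : ℂ) ^ m else 0 := by
    have he : ∀ r : Fin m → F, -(r ⬝ᵥ w) + r ⬝ᵥ w' = r ⬝ᵥ (w' - w) := fun r => by
      rw [dotProduct_sub]; ring
    simp only [he, sum_psi_dot hψ, sub_eq_zero, eq_comm (a := w')]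
  rw [hs]
  split_ifs with h
  · rw [inv_mul_cancel₀ hQ, one_smul]
  · simp

omit hψ in
theorem lev_mul_pr (A : GL (Fin m) F) (w : Fin m → F) :
    ρ (lev A) * pr ρ ψ w = pr ρ ψ (act A w) * ρ (lev A) := by
  set B : Matrix (Fin m) (Fin m) F := ((A⁻¹ : GL (Fin m) F) : Matrix (Fin m) (Fin m) F)
  set a : F := ((GeneralLinearGroup.det A)⁻¹ : Fˣ).val with ha
  let e : (Fin m → F) ≃ (Fin m → F) :=
    { toFun := fun r => a • (r ᵥ* B)
      invFun := fun r => a⁻¹ • (r ᵥ* (A : Matrix (Fin m) (Fin m) F))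
      left_inv := fun r => by
        simp only [smul_vecMul, vecMul_vecMul, B, ← Units.val_mul, inv_mul_cancel, Units.val_one,
          vecMul_one, smul_smul]
        rw [inv_mul_cancel₀ (Units.ne_zero _), one_smul]
      right_inv := fun r => by
        simp only [smul_vecMul, vecMul_vecMul, B, ← Units.val_mul, mul_inv_cancel, Units.val_one,
          vecMul_one, smul_smul]
        rw [mul_inv_cancel₀ (Units.ne_zero _), one_smul] }
  simp only [pr, mul_smul_comm, smul_mul_assoc, Finset.mul_sum, Finset.sum_mul]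
  congr 1
  refine Fintype.sum_equiv e _ _ fun r => ?_
  congr 1
  · congr 2
    show r ⬝ᵥ w = (a • (r ᵥ* B)) ⬝ᵥ act A w
    rw [act, smul_dotProduct, dotProduct_smul, dotProduct_mulVec, vecMul_vecMul]
    simp only [B, ← Units.val_mul, inv_mul_cancel, Units.val_one, vecMul_one, smul_eq_mul]
    rw [← mul_assoc, ha]
    rw [show ((A : Matrix (Fin m) (Fin m) F).det) = (GeneralLinearGroup.det A).val from rfl,
      Units.inv_mul, one_mul]
  · rw [← map_mul, ← map_mul]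
    congr 1
    rw [← inv_mul_cancel_right (lev A * uMat r) (lev A)]
    rw [lev_conj_uMat]
    rfl

theorem isProj_pr (w : Fin m → F) : LinearMap.IsProj (LinearMap.range (pr ρ ψ w)) (pr ρ ψ w) :=
  ⟨fun x => LinearMap.mem_range_self _ x, by
    rintro _ ⟨y, rfl⟩
    have := LinearMap.congr_fun (pr_mul_pr ρ hψ w w) y
    simpa using this⟩

theorem trace_pr (w : Fin m → F) :
    LinearMap.trace ℂ V (pr ρ ψ w) = (finrank ℂ (LinearMap.range (pr ρ ψ w)) : ℂ) :=
  (isProj_pr ρ hψ w).trace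

omit hψ

/-- The dimension of the fixed space of the radical. -/
noncomputable def fdim (ψ : AddChar F ℂ) : ℕ := finrank ℂ (LinearMap.range (pr ρ ψ 0))

/-- The multiplicity of a non-trivial character of the radical. -/
noncomputable def mult (ψ : AddChar F ℂ) : ℕ := finrank ℂ (LinearMap.range (pr ρ ψ 1))

include hψ

theorem trace_pr_zero : LinearMap.trace ℂ V (pr ρ ψ 0) = (fdim ρ ψ : ℂ) := trace_pr ρ hψ 0

theorem trace_pr_eq (hm : Trans F m) {w : Fin m → F} (hw : w ≠ 0) :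
    LinearMap.trace ℂ V (pr ρ ψ w) = (mult ρ ψ : ℂ) := by
  rw [mult, ← trace_pr ρ hψ]
  obtain ⟨A, hA⟩ := hm.2 w hw
  have h1 : pr ρ ψ w = ρ (lev A) * pr ρ ψ 1 * ρ (lev A)⁻¹ := by
    rw [lev_mul_pr, hA, mul_assoc, ← map_mul, mul_inv_cancel, map_one, mul_one]
  rw [h1, LinearMap.trace_mul_comm, ← mul_assoc, ← map_mul, inv_mul_cancel, map_one, one_mul]

theorem sum_weight (hm : Trans F m) (g : (Fin m → F) → ℂ) :
    ∑ w, g w * LinearMap.trace ℂ V (pr ρ ψ w) =
      g 0 * fdim ρ ψ + (∑ w, g w - g 0) * mult ρ ψ := by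
  rw [← Finset.add_sum_erase _ _ (Finset.mem_univ 0), trace_pr_zero ρ hψ,
    ← Finset.add_sum_erase _ g (Finset.mem_univ 0), add_sub_cancel_left, Finset.sum_mul]
  congr 1
  exact Finset.sum_congr rfl fun w hw => by rw [trace_pr_eq ρ hψ hm (Finset.ne_of_mem_erase hw)]

theorem finrank_eq (hm : Trans F m) :
    finrank ℂ V = fdim ρ ψ + mult ρ ψ * (Fintype.card F ^ m - 1) := by
  have h := congrArg (LinearMap.trace ℂ V) (sum_pr ρ hψ)
  rw [map_sum, LinearMap.trace_one] at h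
  have h' := sum_weight ρ hψ hm (fun _ => 1)
  simp only [one_mul, Finset.sum_const, Finset.card_univ, Fintype.card_pi_const, nsmul_eq_mul,
    mul_one, h] at h'
  apply Nat.cast_injective (R := ℂ)
  rw [Nat.cast_add, Nat.cast_mul, Nat.cast_sub (Nat.one_le_pow _ _ Fintype.card_pos), h']
  push_cast
  ring

theorem char_uMat (hm : Trans F m) {s : Fin m → F} (hs : s ≠ 0) :
    ρ.character (uMat s) = (fdim ρ ψ : ℂ) - mult ρ ψ := by
  have h1 : ρ (uMat s) = ∑ w, ψ (s ⬝ᵥ w) • pr ρ ψ w := by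
    conv_lhs => rw [← mul_one (ρ (uMat s)), ← sum_pr ρ hψ, Finset.mul_sum]
    exact Finset.sum_congr rfl fun w _ => uMat_mul_pr ρ s w
  rw [Representation.character, h1, map_sum]
  simp only [map_smul, smul_eq_mul]
  rw [sum_weight ρ hψ hm]
  have h0 : ∑ w : Fin m → F, ψ (s ⬝ᵥ w) = 0 := by
    simp only [dotProduct_comm s]
    rw [sum_psi_dot hψ, if_neg hs]
  rw [h0]
  simp
  ring

theorem uMat_eq_one_of_mult_eq_zero (hm : Trans F m) (h0 : mult ρ ψ = 0) (s : Fin m → F) :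
    ρ (uMat s) = 1 := by
  have hw : ∀ w : Fin m → F, w ≠ 0 → pr ρ ψ w = 0 := by
    intro w hw
    have h := trace_pr_eq ρ hψ hm hw
    rw [trace_pr ρ hψ, h0, Nat.cast_zero, Nat.cast_eq_zero, Submodule.finrank_eq_zero,
      LinearMap.range_eq_bot] at h
    exact h
  have hsum := sum_pr ρ hψ
  rw [Finset.sum_eq_single 0 (fun w _ h => hw w h) (by simp)] at hsum
  have := uMat_mul_pr (ψ := ψ) ρ s 0
  rw [hsum, mul_one, dotProduct_zero, AddChar.map_zero_eq_one, one_smul] at this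
  exact this

/-- A small representation is trivial. -/
theorem eq_one_of_finrank_lt (hm : Trans F m) (h : finrank ℂ V < Fintype.card F ^ m - 1) :
    ∀ g, ρ g = 1 := by
  have key : ∀ σ : Representation ℂ (SpecialLinearGroup (Fin (m + 1)) F) V, mult σ ψ = 0 := by
    intro σ
    by_contra h0
    have := finrank_eq σ hψ hm
    have := Nat.le_mul_of_pos_left (Fintype.card F ^ m - 1) (Nat.pos_of_ne_zero h0)
    omega
  have hker : ρ.ker = ⊤ := eq_top_of_uMat_mem _
    (fun r => MonoidHom.mem_ker.mpr (uMat_eq_one_of_mult_eq_zero ρ hψ hm (key ρ) r))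
    (fun r => MonoidHom.mem_ker.mpr
      (uMat_eq_one_of_mult_eq_zero (ρ.comp dual) hψ hm (key _) r))
  exact fun g => MonoidHom.mem_ker.mp (hker ▸ Subgroup.mem_top g)

/-- Without non-trivial weights the representation is trivial. -/
theorem eq_one_of_mult_eq_zero (hm : 2 ≤ m) (h0 : mult ρ ψ = 0) : ∀ g, ρ g = 1 := by
  have hker : ρ.ker = ⊤ := by
    refine eq_top_of_tv_mem _ fun v φ hd => ?_
    rcases eq_or_ne v 0 with rfl | hv
    · rw [tv_zero_left]; exact one_mem _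
    rcases eq_or_ne φ 0 with rfl | hφ
    · rw [tv_zero]; exact one_mem _
    obtain ⟨c, hc⟩ := isConj_iff.mp
      ((isTransv_uMat (one_ne_zero_vec (F := F) (m := m) (by omega))).isConj (by omega)
        ⟨v, φ, hd, hv, hφ, rfl⟩)
    rw [← hc]
    exact (inferInstance : ρ.ker.Normal).conj_mem _
      (MonoidHom.mem_ker.mpr (uMat_eq_one_of_mult_eq_zero ρ hψ (trans_of_two_le hm) h0 _)) c
  exact fun g => MonoidHom.mem_ker.mp (hker ▸ Subgroup.mem_top g)

omit hψ in
theorem mem_range_pr_zero (v : V) (h : ∀ r, ρ (uMat r) v = v) :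
    v ∈ LinearMap.range (pr ρ ψ (0 : Fin m → F)) := by
  refine ⟨v, ?_⟩
  simp [pr, h, Fintype.card_pi_const]
  rw [← Nat.cast_smul_eq_nsmul ℂ, Nat.cast_pow, smul_smul, inv_mul_cancel₀ (pow_ne_zero _ (Nat.cast_ne_zero.mpr Fintype.card_ne_zero)),
    one_smul]

theorem uMat_apply_of_mem {v : V} (hv : v ∈ LinearMap.range (pr ρ ψ (0 : Fin m → F)))
    (r : Fin m → F) : ρ (uMat r) v = v := by
  obtain ⟨x, rfl⟩ := hv
  have := LinearMap.congr_fun (uMat_mul_pr (ψ := ψ) ρ r 0) x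
  simpa using this

end Cfsg.Agent.H44.SLMin
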